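import Mathlib.GroupTheory.SpecificGroups.Alternating
import Mathlib.Tactic.FinCases

/-!
Finite facts about the alternating group on five points acting on points and pairs, and about the
subsets of a five-point set.
-/

set_option autoImplicit false
set_option maxRecDepth 100000
set_option maxHeartbeats 4000000
set_option synthInstance.maxHeartbeats 400000
set_option synthInstance.maxSize 1024

namespace Cfsg.Agent.EightType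

open Equiv

/-- The alternating group on five points. -/
abbrev A5 := ↥(alternatingGroup (Fin 5))

theorem a5_five_of_invol : ∀ s : A5, s * s = 1 → s ≠ 1 →
    ∃ t : A5, s * (t * s * t⁻¹) ≠ 1 ∧ (s * (t * s * t⁻¹)) ^ 5 = 1 := by decide

theorem a5_fixed_point : ∀ s : A5, s * s = 1 → s ≠ 1 →
    ∃ i : Fin 5, ∀ j : Fin 5, (s.1 j = j ↔ j = i) := by decide

theorem a5_five_of_points : ∀ i j : Fin 5, i ≠ j → ∃ a : A5, a * a = 1 ∧ a ≠ 1 ∧ a.1 i = i ∧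
    ∃ b : A5, b * b = 1 ∧ b ≠ 1 ∧ b.1 j = j ∧ a * b ≠ 1 ∧ (a * b) ^ 5 = 1 := by decide

theorem a5_trans : ∀ i : Fin 5, ∃ s : A5, s.1 0 = i := by decide

theorem a5_trans_two : ∀ k l : Fin 5, k ≠ l → ∃ s : A5, s.1 0 = k ∧ s.1 1 = l := by decide

theorem a5_stab_zero : ∃ a : A5, a * a = 1 ∧ a ≠ 1 ∧ a.1 0 = 0 ∧
    ∃ b : A5, b * b = 1 ∧ b ≠ 1 ∧ b.1 0 = 0 ∧ a ≠ b ∧
    ∃ t : A5, t ^ 3 = 1 ∧ t.1 0 = 0 ∧ t ≠ 1 ∧
      (∀ s : A5, s.1 0 = 0 → ∃ k : Fin 3, s * t ^ (k : ℕ) = 1 ∨ s * t ^ (k : ℕ) = a ∨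
        s * t ^ (k : ℕ) = b ∨ s * t ^ (k : ℕ) = a * b) := by decide

theorem a5_centralizer_invol : ∀ s : A5, s * s = 1 → s ≠ 1 → ∀ x : A5, x * s = s * x → x ≠ 1 →
    x ≠ s → ∀ y : A5, y * s = s * y → y = 1 ∨ y = s ∨ y = x ∨ y = x * s := by decide

theorem a5_invol_pairs : ∀ s : A5, s * s = 1 → s ≠ 1 →
    ∃ a b : Fin 5, ∀ i : Fin 5, s.1 i ≠ i → i = a ∨ i = s.1 a ∨ i = b ∨ i = s.1 b := by decide

theorem a5_stab_conj : ∀ i : Fin 5, ∀ s : A5, s * s = 1 → s ≠ 1 → s.1 i = i → ∀ r : A5,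
    r * r = 1 → r ≠ 1 → r.1 i = i → ∃ t : A5, t.1 i = i ∧ t * s * t⁻¹ = r := by decide

theorem a5_four : ∀ i : Fin 5, ∀ a : A5, a * a = 1 → a ≠ 1 → a.1 i = i → ∀ b : A5,
    b * b = 1 → b ≠ 1 → b.1 i = i → a ≠ b →
    a * b = b * a ∧ a * b ≠ 1 ∧ ∀ r : A5, r * r = 1 → r.1 i = i →
      r = 1 ∨ r = a ∨ r = b ∨ r = a * b := by decide

theorem a5_invol_move : ∀ i j k : Fin 5, j ≠ i → k ≠ i → j ≠ k →
    ∃ v : A5, v * v = 1 ∧ v ≠ 1 ∧ v.1 i = i ∧ v.1 j = k := by decide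

theorem a5_two_power : ∀ s : A5, s ^ 4 = 1 → s * s = 1 := by decide

theorem fin5_third : ∀ i j : Fin 5, ∃ k : Fin 5, k ≠ i ∧ k ≠ j := by decide

theorem fin5_pairs : ∀ i : Fin 5, ∀ j : Fin 5, j ≠ i → ∃ a b c : Fin 5,
    ({a, b, c, j} : Finset (Fin 5)) = Finset.univ.erase i ∧ a ≠ b := by decide

theorem finset5_cases : ∀ T : Finset (Fin 5), T = ∅ ∨ T = Finset.univ ∨
    (∃ i, T = {i} ∨ Tᶜ = {i}) ∨ ∃ i j : Fin 5, i ≠ j ∧ (T = {i, j} ∨ Tᶜ = {i, j}) := by decide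

theorem finset5_card : (Finset.univ.filter fun T : Finset (Fin 5) => (4 : Fin 5) ∉ T).card = 16 := by
  decide

theorem a5_conj_all : ∃ s₀ : A5, ∀ s : A5, s * s = 1 → s ≠ 1 → ∃ t : A5, t * s * t⁻¹ = s₀ := by
  decide

theorem a5_fix_pairs : ∀ i : Fin 5, ∀ s : A5, s.1 i = i →
    (∀ a b : Fin 5, a ≠ i → b ≠ i → a ≠ b → s.1 a = a ∨ s.1 a = b) → s = 1 := by decide

theorem finset5_compl_pair : ∀ i j : Fin 5, i ≠ j → ∀ k l : Fin 5, k ≠ l →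
    (({k, l} : Finset (Fin 5)) = {i, j} ∨ ({k, l} : Finset (Fin 5)) = ({i, j} : Finset (Fin 5))ᶜ) →
    (k = i ∧ l = j) ∨ (k = j ∧ l = i) := by decide

theorem finset5_pair_single : ∀ i j : Fin 5, i ≠ j → ∀ k : Fin 5,
    ({k} : Finset (Fin 5)) ≠ {i, j} ∧ ({k} : Finset (Fin 5)) ≠ ({i, j} : Finset (Fin 5))ᶜ := by
  decide

theorem finset5_pick : ∀ T : Finset (Fin 5), ∃ T' : Finset (Fin 5),
    (4 : Fin 5) ∉ T' ∧ (T' = T ∨ T' = Tᶜ) := by decide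

end Cfsg.Agent.EightType
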