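import Mathlib.GroupTheory.SpecificGroups.Alternating
import Mathlib.GroupTheory.Perm.Centralizer
import Mathlib.GroupTheory.Sylow

/-!
The center of a Sylow 2-subgroup of the alternating group of degree eight has order less than
sixteen.
-/

set_option autoImplicit false
set_option linter.style.haveILetI false
set_option maxRecDepth 100000

namespace Cfsg.Agent.EightType

open Equiv Subgroup

/-- A permutation of cycle type `4, 2`. -/
def perm42 : Perm (Fin 8) := swap 0 1 * swap 1 2 * swap 2 3 * swap 4 5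

theorem perm42_sign : Perm.sign perm42 = 1 := by decide
theorem perm42_pow : perm42 ^ 4 = 1 := by decide
theorem perm42_comm : perm42 * swap 6 7 = swap 6 7 * perm42 := by decide

theorem perm42_cycleType : perm42.cycleType = {4, 2} := by decide

theorem card_central_lt (P : Sylow 2 ↥(alternatingGroup (Fin 8)))
    (Z : Subgroup ↥(P : Subgroup ↥(alternatingGroup (Fin 8))))
    (hZ : ∀ z ∈ Z, ∀ p, z * p = p * z) : Nat.card Z < 16 := by
  haveI : Fact (Nat.Prime 2) := ⟨Nat.prime_two⟩
  let x : ↥(alternatingGroup (Fin 8)) := ⟨perm42, Equiv.Perm.mem_alternatingGroup.2 perm42_sign⟩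
  have hx : x ^ 4 = 1 := Subtype.ext perm42_pow
  have hp : IsPGroup 2 (zpowers x) := by
    rintro ⟨y, hy⟩
    obtain ⟨k, rfl⟩ := mem_zpowers_iff.1 hy
    refine ⟨2, Subtype.ext ?_⟩
    show (x ^ k) ^ (2 ^ 2) = 1
    rw [← zpow_natCast, ← zpow_mul, mul_comm, zpow_mul, zpow_natCast]
    norm_num [hx]
  obtain ⟨Q, hQ⟩ := hp.exists_le_sylow
  obtain ⟨g, hg⟩ := MulAction.exists_smul_eq ↥(alternatingGroup (Fin 8)) P Q
  have hy : g⁻¹ * x * g ∈ (P : Subgroup ↥(alternatingGroup (Fin 8))) := by
    have h := hQ (mem_zpowers x)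
    rw [← hg, Sylow.coe_subgroup_smul, Subgroup.mem_pointwise_smul_iff_inv_smul_mem] at h
    simpa [mul_assoc] using h
  set c : Perm (Fin 8) := (g⁻¹ : ↥(alternatingGroup (Fin 8))).1
  set y : Perm (Fin 8) := c * perm42 * c⁻¹ with hy'
  have hyval : ((g⁻¹ * x * g : ↥(alternatingGroup (Fin 8))) : Perm (Fin 8)) = y := by
    simp [hy', c, x]
  let ι : ↥(P : Subgroup ↥(alternatingGroup (Fin 8))) →* Perm (Fin 8) :=
    (alternatingGroup (Fin 8)).subtype.comp (P : Subgroup ↥(alternatingGroup (Fin 8))).subtype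
  have hinj : Function.Injective ι := fun a b h => Subtype.ext (Subtype.ext h)
  have hle : Z.map ι ≤ centralizer ({y} : Set (Perm (Fin 8))) := by
    rintro _ ⟨z, hz, rfl⟩
    rw [mem_centralizer_singleton_iff, ← hyval]
    exact congrArg ι (hZ z hz ⟨_, hy⟩)
  have hcard : Nat.card (centralizer ({y} : Set (Perm (Fin 8)))) = 16 := by
    rw [Equiv.Perm.nat_card_centralizer, hy', Equiv.Perm.cycleType_conj, perm42_cycleType]
    rfl
  have hodd : ¬ c * swap 6 7 * c⁻¹ ∈ Z.map ι := by
    rintro ⟨z, -, hz⟩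
    have : Perm.sign (ι z) = 1 := Equiv.Perm.mem_alternatingGroup.1 z.1.2
    rw [hz] at this
    simp [Perm.sign_swap (show (6 : Fin 8) ≠ 7 by decide)] at this
  have hmem : c * swap 6 7 * c⁻¹ ∈ centralizer ({y} : Set (Perm (Fin 8))) := by
    rw [mem_centralizer_singleton_iff, hy', conj_mul, conj_mul, perm42_comm]
  have hlt : Nat.card (Z.map ι) < Nat.card (centralizer ({y} : Set (Perm (Fin 8)))) := by
    refine lt_of_le_of_ne (Nat.le_of_dvd Nat.card_pos (card_dvd_of_le hle)) fun he => hodd ?_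
    rw [eq_of_le_of_card_ge hle he.ge]
    exact hmem
  rwa [hcard, card_map_of_injective hinj] at hlt

end Cfsg.Agent.EightType
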