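import Cfsg.Agent.EightType.Gen
import Mathlib.GroupTheory.Transfer

/-!
Normal subgroups with a central Sylow 2-subgroup of order two.
-/

set_option autoImplicit false
set_option linter.unusedSectionVars false
set_option linter.style.haveILetI false

namespace Cfsg.Agent.EightType

open Subgroup

universe u

variable {H : Type u} [Group H] [Finite H]

/-- A normal subgroup with central Sylow 2-subgroup `⟨b⟩` is contained in `O(H) ∪ O(H)b`. -/
theorem central_split {b : H} (hb : b * b = 1) (hb1 : b ≠ 1) (hc : ∀ x, x * b = b * x)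
    {L : Subgroup H} [L.Normal] (hbL : b ∈ L) (hidx : Odd ((zpowers b).relIndex L))
    {x : H} (hx : x ∈ L) : ∃ o ∈ Cfsg.oddCore H, x = o ∨ x = o * b := by
  haveI : Fact (Nat.Prime 2) := ⟨Nat.prime_two⟩
  set b' : ↥L := ⟨b, hbL⟩ with hb'
  have hb'2 : orderOf b' = 2 := by
    rw [← Subgroup.orderOf_coe]; exact Invol.orderOf_eq_two hb hb1
  have hidx' : ¬ 2 ∣ (zpowers b').index := by
    have e : zpowers b' = (zpowers b).subgroupOf L := by
      refine le_antisymm (zpowers_le.2 (mem_subgroupOf.2 (mem_zpowers b))) fun y hy => ?_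
      obtain ⟨k, hk⟩ := mem_zpowers_iff.1 (mem_subgroupOf.1 hy)
      exact mem_zpowers_iff.2 ⟨k, Subtype.ext (by simpa using hk)⟩
    rw [e]
    exact not_two_dvd_of_odd hidx
  let P : Sylow 2 ↥L := (IsPGroup.of_card (n := 1)
    (show Nat.card (zpowers b') = 2 ^ 1 by rw [Nat.card_zpowers, hb'2, pow_one])).toSylow hidx'
  have hP : normalizer ((P : Subgroup ↥L) : Set ↥L) ≤ centralizer ((P : Subgroup ↥L) : Set ↥L) :=
    fun y _ => mem_centralizer_iff.2 fun p hp => by
      obtain ⟨k, rfl⟩ := mem_zpowers_iff.1 (show p ∈ zpowers b' from hp)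
      exact ((show Commute y b' from Subtype.ext (hc y)).zpow_right k).eq.symm
  set K := (MonoidHom.transferSylow P hP).ker with hK
  have hcomp : K.IsComplement' (P : Subgroup ↥L) := MonoidHom.ker_transferSylow_isComplement' P hP
  have hKodd : Odd (Nat.card K) := by
    rw [Nat.odd_iff, ← Nat.two_dvd_ne_zero]
    intro h2
    refine P.not_dvd_index ?_
    rw [Nat.eq_of_mul_eq_mul_left (Nat.card_pos (α := (P : Subgroup ↥L))) (m := (P : Subgroup ↥L).index)
      (k := Nat.card K) (by rw [card_mul_index, mul_comm, hcomp.card_mul_card])]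
    exact h2
  have hmem : ∀ y : ↥L, Odd (orderOf y) → y ∈ K := by
    intro y hy
    refine MonoidHom.mem_ker.2 (orderOf_eq_one_iff.1 ?_)
    obtain ⟨k, hk⟩ := IsPGroup.iff_orderOf.1 P.2 (MonoidHom.transferSylow P hP y)
    exact Nat.eq_one_of_dvd_coprimes ((Nat.coprime_two_left.2 hy).pow_left k)
      (hk ▸ dvd_rfl) (orderOf_map_dvd _ y)
  have hKO : K.map L.subtype ≤ Cfsg.oddCore H := by
    refine le_oddCore (by rwa [card_map_of_injective L.subtype_injective]) ?_
    rintro g _ ⟨k, hk, rfl⟩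
    refine ⟨⟨g * k * g⁻¹, ‹L.Normal›.conj_mem _ k.2 g⟩, hmem _ ?_, rfl⟩
    rw [← Subgroup.orderOf_coe, Invol.orderOf_conj, Subgroup.orderOf_coe, ← Subgroup.orderOf_coe]
    exact orderOf_odd_of_mem (D := K.map L.subtype)
      (by rwa [card_map_of_injective L.subtype_injective]) ⟨k, hk, rfl⟩
  haveI : K.Normal := MonoidHom.normal_ker _
  obtain ⟨k, hk, p, hp, e⟩ := mem_sup_of_normal_left.1 (hcomp.sup_eq_top ▸ mem_top (⟨x, hx⟩ : ↥L))
  have e' : x = (k : H) * (p : H) := congrArg Subtype.val e.symm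
  refine ⟨k, hKO ⟨k, hk, rfl⟩, ?_⟩
  obtain ⟨j, rfl⟩ := mem_zpowers_iff.1 (show p ∈ zpowers b' from hp)
  rcases Int.even_or_odd' j with ⟨i, rfl | rfl⟩
  · left
    rw [e']
    simp [b', zpow_mul, zpow_two, pow_two, hb]
  · right
    rw [e']
    simp [b', zpow_add_one, zpow_mul, zpow_two, pow_two, hb]

/-- Conjugation by a normalizing element preserves the odd core. -/
theorem core_map_conj {G : Type u} [Group G] [Finite G] {C : Subgroup G} {g : G}
    (hg : ∀ c, g * c * g⁻¹ ∈ C ↔ c ∈ C) {x : G} (hx : x ∈ core C) : g * x * g⁻¹ ∈ core C := by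
  refine le_core (D := (core C).map (MulAut.conj g).toMonoidHom) ?_ ?_ ?_ ⟨x, hx, rfl⟩
  · rintro _ ⟨y, hy, rfl⟩
    exact (hg y).2 (core_le _ hy)
  · rw [card_map_of_injective (f := (MulAut.conj g).toMonoidHom) (MulAut.conj g).injective]
    exact core_odd _
  · rintro h hh _ ⟨y, hy, rfl⟩
    have hh' : g⁻¹ * h * g ∈ C := (hg _).1 (by rwa [show g * (g⁻¹ * h * g) * g⁻¹ = h by group])
    refine ⟨_, core_conj hh' hy, ?_⟩
    show g * (g⁻¹ * h * g * y * (g⁻¹ * h * g)⁻¹) * g⁻¹ = h * (g * y * g⁻¹) * h⁻¹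
    group

end Cfsg.Agent.EightType
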