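import Cfsg.Agent.EightType.Fusion
import Cfsg.Agent.EightType.Quot
import Cfsg.Agent.Invol.RankOneQuot

/-!
The centralizer of an element of `A` attached to a pair of points, by the Z*-theorem.
-/

set_option autoImplicit false
set_option linter.unusedSectionVars false
set_option linter.style.haveILetI false
set_option maxHeartbeats 1000000

namespace Cfsg.Agent.EightType

open Subgroup
open scoped commutatorElement

universe u

variable {G : Type u} [Group G] [Finite G] {A : Subgroup G}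

namespace Model

variable (M : Model A)
include M

theorem conj_zi_near {i j : Fin 5} (hij : i ≠ j) {g : G}
    (hg : g * (M.z i * M.z j) = M.z i * M.z j * g) :
    ∃ r ∈ theta (M.z i * M.z j), g * M.z i * g⁻¹ = r * M.z i * r⁻¹ ∨
      g * M.z i * g⁻¹ = r * M.z j * r⁻¹ := by
  haveI : Fact (Nat.Prime 2) := ⟨Nat.prime_two⟩
  set b := M.z i * M.z j with hb
  have hbA : b ∈ A := M.pair_mem i j
  have hb1 : b ≠ 1 := M.pair_ne_one hij
  have hb2 : orderOf b = 2 := M.orderOf_two hbA hb1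
  set C := centralizer ({b} : Set G) with hC
  have hcom : ∀ x : ↥C, (x : G) * b = b * x := fun x => mem_cent.1 x.2
  have hAC : ∀ a ∈ A, a ∈ C := fun a ha => mem_cent.2 (M.comm ha hbA)
  let b' : ↥C := ⟨b, mem_cent.2 rfl⟩
  let zi : ↥C := ⟨M.z i, hAC _ (M.z_mem i)⟩
  set Z := zpowers b' with hZ
  haveI : Z.Normal := ⟨fun y hy c => by
    obtain ⟨k, rfl⟩ := mem_zpowers_iff.1 hy
    rw [((show Commute c b' from Subtype.ext (hcom c)).zpow_right k).eq, mul_inv_cancel_right]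
    exact zpow_mem (mem_zpowers b') k⟩
  have hZmem : ∀ y ∈ Z, y = 1 ∨ y = b' := by
    intro y hy
    obtain ⟨k, rfl⟩ := mem_zpowers_iff.1 hy
    have h2 : b' * b' = 1 := Subtype.ext (M.sq hbA)
    rcases Int.even_or_odd' k with ⟨l, rfl | rfl⟩
    · left; rw [zpow_mul, zpow_two, h2, one_zpow]
    · right; rw [zpow_add_one, zpow_mul, zpow_two, h2, one_zpow, one_mul]
  set π := QuotientGroup.mk' Z with hπ
  obtain ⟨T, hTN, hTA⟩ := M.cent_sylow (Base.le_nz hbA) hb2
  have hbT : b' ∈ (T : Subgroup ↥C) := hTA b _ hbA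
  have ht2 : orderOf (π zi) = 2 := by
    refine Invol.orderOf_eq_two ?_ fun h => ?_
    · rw [← map_mul, show zi * zi = 1 from Subtype.ext (M.sq (M.z_mem i)), map_one]
    · rcases hZmem zi ((QuotientGroup.eq_one_iff _).1 h) with e | e
      · exact M.z_ne i (congrArg Subtype.val e)
      · exact M.zt_not_bt hij (congrArg Subtype.val e)
  have hij' : M.z i * b = M.z j := by rw [hb, ← mul_assoc, M.sq (M.z_mem i), one_mul]
  have hiso : ∀ q : ↥C ⧸ Z,
      q * π zi * q⁻¹ ∈ T.mapSurjective (QuotientGroup.mk'_surjective Z) → q * π zi * q⁻¹ = π zi := by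
    intro q hq
    obtain ⟨c, rfl⟩ := QuotientGroup.mk'_surjective Z q
    have hq' : π (c * zi * c⁻¹) ∈ (T : Subgroup ↥C).map π := by
      rw [map_mul, map_mul, map_inv]; exact hq
    obtain ⟨t, ht, hte⟩ := hq'
    have hcT : c * zi * c⁻¹ ∈ (T : Subgroup ↥C) := by
      have h1 : t⁻¹ * (c * zi * c⁻¹) ∈ Z := QuotientGroup.eq.1 hte
      have h2 : t⁻¹ * (c * zi * c⁻¹) ∈ (T : Subgroup ↥C) := by
        rcases hZmem _ h1 with e | e <;> rw [e]
        exacts [one_mem _, hbT]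
      simpa using mul_mem ht h2
    obtain ⟨k, hk⟩ := M.zt_of_isConj ⟨i, rfl⟩ (hTN _ hcT) (Invol.isConj_conj (c : G) (M.z i))
    have hl : M.ZT ((c : G) * M.z i * (c : G)⁻¹ * b) := by
      refine M.zt_of_isConj ⟨j, rfl⟩ (mul_mem (hTN _ hcT) (Base.le_nz hbA)) ?_
      have e : (c : G) * M.z j * (c : G)⁻¹ = (c : G) * M.z i * (c : G)⁻¹ * b := by
        rw [← hij']
        calc (c : G) * (M.z i * b) * (c : G)⁻¹
            = (c : G) * M.z i * (c : G)⁻¹ * ((c : G) * b * (c : G)⁻¹) := by group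
          _ = _ := by rw [hcom c, mul_inv_cancel_right]
      rw [← e]
      exact Invol.isConj_conj _ _
    obtain ⟨l, hl⟩ := hl
    have hk' : (c : G) * M.z i * (c : G)⁻¹ = M.z k := hk
    rw [hk'] at hl
    have hkij : k = i ∨ k = j := by
      by_cases hkl : k = l
      · subst hkl
        exact absurd (mul_left_cancel (hl.trans (mul_one _).symm)) hb1
      · have h3 : M.z k * M.z l = M.z i * M.z j := by
          rw [← hb, ← hl, ← mul_assoc, M.sq (M.z_mem k), one_mul]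
        rcases M.pair_eq hij hkl h3 with ⟨e, -⟩ | ⟨e, -⟩
        exacts [Or.inl e, Or.inr e]
    rw [← map_inv, ← map_mul, ← map_mul]
    rcases hkij with rfl | rfl
    · rw [show c * zi * c⁻¹ = zi from Subtype.ext hk]
    · rw [show c * zi * c⁻¹ = zi * b' from Subtype.ext (hk.trans hij'.symm), map_mul,
        show QuotientGroup.mk' Z b' = 1 from (QuotientGroup.eq_one_iff b').2 (mem_zpowers b'),
        mul_one]
  have htT : π zi ∈ T.mapSurjective (QuotientGroup.mk'_surjective Z) :=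
    ⟨zi, hTA _ _ (M.z_mem i), rfl⟩
  have hisol : Invol.IsIsolatedInv (π zi) := ⟨ht2, fun q hq =>
    Invol.eq_of_commute_isConj _ ht2 htT hiso (Invol.isConj_conj q (π zi)) hq.symm⟩
  set g' : ↥C := ⟨g, mem_cent.2 hg⟩ with hg'
  have hzs := Invol.zStar_theorem (↥C ⧸ Z) (π zi) hisol (π g')
  set L := (Cfsg.pPrimeCore 2 (↥C ⧸ Z)).comap π with hL
  haveI : L.Normal := inferInstance
  have hidx : Odd (Z.relIndex L) := by
    have h1 : Z.relIndex L = Nat.card (Cfsg.pPrimeCore 2 (↥C ⧸ Z)) := by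
      have e : (⊥ : Subgroup (↥C ⧸ Z)).comap π = Z := by
        rw [MonoidHom.comap_bot, hπ, QuotientGroup.ker_mk']
      rw [← relIndex_bot_left]
      conv_lhs => rw [← e, relIndex_comap,
        hL, map_comap_eq_self_of_surjective (QuotientGroup.mk'_surjective Z)]
    rw [h1]
    exact Nat.coprime_two_right.1 (Cores.pPrimeCore_coprime (p := 2))
  have hxL : zi * (g' * zi * g'⁻¹) ∈ L := by
    rw [hL, mem_comap]
    have e : ⁅π zi, π g'⁆ = π (zi * (g' * zi * g'⁻¹)) := by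
      rw [commutatorElement_def, ← map_inv, ← map_inv, ← map_mul, ← map_mul, ← map_mul,
        show zi⁻¹ = zi from inv_eq_of_mul_eq_one_left (Subtype.ext (M.sq (M.z_mem i)))]
      congr 1
      group
    rwa [e] at hzs
  have hb'1 : b' ≠ 1 := fun h => hb1 (congrArg Subtype.val h)
  have hbL : b' ∈ L := by
    rw [hL, mem_comap, show π b' = 1 from (QuotientGroup.eq_one_iff b').2 (mem_zpowers b')]
    exact one_mem _
  obtain ⟨o, ho, hoe⟩ := central_split (show b' * b' = 1 from Subtype.ext (M.sq hbA)) hb'1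
    (fun x => Subtype.ext (hcom x)) hbL hidx hxL
  have hoθ : (o : G) ∈ theta b := ⟨o, ho, rfl⟩
  set y := g * M.z i * g⁻¹ with hy
  have hy2 : y * y = 1 := by rw [hy, conj_mul, M.sq (M.z_mem i), mul_one, mul_inv_cancel]
  have key : ∀ k, y = M.z k * (o : G) → ∃ r ∈ theta b, y = r * M.z k * r⁻¹ := by
    intro k hk
    set o' := M.z k * (o : G) * (M.z k)⁻¹ with ho'
    have ho'θ : o' ∈ theta b := theta_conj_mem (M.comm (M.z_mem k) hbA) hoθ
    have hyo : y = o' * M.z k := by rw [hk, ho']; group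
    obtain ⟨r, hr, hre⟩ := exists_conj_of_inverted (M.sq (M.z_mem k))
      (orderOf_odd_of_mem (core_odd _) ho'θ) (hyo ▸ hy2)
    exact ⟨r, zpowers_le.2 ho'θ hr, by rw [hre, hyo]⟩
  have hyi : M.z i * (M.z i * y) = y := by rw [← mul_assoc, M.sq (M.z_mem i), one_mul]
  rcases hoe with e | e
  · have h : M.z i * y = (o : G) := congrArg Subtype.val e
    obtain ⟨r, hr, hre⟩ := key i (by rw [← h, hyi])
    exact ⟨r, hr, Or.inl hre⟩
  · have h : M.z i * y = (o : G) * b := congrArg Subtype.val e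
    obtain ⟨r, hr, hre⟩ := key j (by
      rw [← hyi, h, hcom o, ← mul_assoc, hij'])
    exact ⟨r, hr, Or.inr hre⟩

theorem decomp_pair (hZ : ∀ i, Decomp A (M.z i)) {i j : Fin 5} (hij : i ≠ j) :
    Decomp A (M.z i * M.z j) := by
  set b := M.z i * M.z j with hb
  set C := centralizer ({b} : Set G) with hC
  have hbA : b ∈ A := M.pair_mem i j
  have hij' : M.z i * b = M.z j := by rw [hb, ← mul_assoc, M.sq (M.z_mem i), one_mul]
  obtain ⟨s₁, hs₁i, hs₁j⟩ := a5_trans_two i j hij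
  obtain ⟨s₂, hs₂i, hs₂j⟩ := a5_trans_two j i hij.symm
  set w := M.lift (s₂ * s₁⁻¹) with hw
  have hwN : w ∈ normalizer (A : Set G) := M.lift_mem _
  have hwi : w * M.z i * w⁻¹ = M.z j := by
    rw [M.conj_z hwN, M.f_lift]
    congr 1
    rw [Subgroup.coe_mul, Equiv.Perm.mul_apply, Subgroup.coe_inv,
      Equiv.Perm.inv_eq_iff_eq.2 hs₁i.symm, hs₂i]
  have hwj : w * M.z j * w⁻¹ = M.z i := by
    rw [M.conj_z hwN, M.f_lift]
    congr 1
    rw [Subgroup.coe_mul, Equiv.Perm.mul_apply, Subgroup.coe_inv,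
      Equiv.Perm.inv_eq_iff_eq.2 hs₁j.symm, hs₂j]
  have hwb : w * b * w⁻¹ = b := by
    rw [hb, ← conj_mul, hwi, hwj, M.comm (M.z_mem j) (M.z_mem i)]
  have hwC : w ∈ C := mem_cent.2 (mul_inv_eq_iff_eq_mul.1 hwb)
  set R₀ := C ⊓ centralizer ({M.z i} : Set G) with hR₀
  have hR₀j : ∀ x ∈ C, (x * M.z i = M.z i * x ↔ x * M.z j = M.z j * x) := by
    intro x hx
    rw [← hij']
    constructor
    · intro h
      exact (show Commute x (M.z i) from h).mul_right (mem_cent.1 hx)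
    · intro h
      have := (show Commute x (M.z i * b) from h).mul_right (mem_cent.1 hx)
      rwa [mul_assoc, M.sq hbA, mul_one] at this
  have hw₀ : ∀ c, w * c * w⁻¹ ∈ R₀ ↔ c ∈ R₀ := by
    have main : ∀ v ∈ C, v * M.z j * v⁻¹ = M.z i → ∀ c ∈ R₀, v * c * v⁻¹ ∈ R₀ := by
      intro v hv hvj c hc
      refine Subgroup.mem_inf.2 ⟨mul_mem (mul_mem hv hc.1) (inv_mem hv), mem_cent.2 ?_⟩
      rw [← hvj, conj_mul, conj_mul, (hR₀j c hc.1).1 (mem_cent.1 hc.2)]
    intro c
    refine ⟨fun h => ?_, main w hwC hwj c⟩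
    have := main w⁻¹ (inv_mem hwC) (by rw [← hwi]; group) _ h
    rwa [show w⁻¹ * (w * c * w⁻¹) * w⁻¹⁻¹ = c by group] at this
  set R := R₀ ⊔ zpowers w with hR
  have hRC : R ≤ C := sup_le inf_le_left (zpowers_le.2 hwC)
  have hsplit : ∀ h ∈ C, ∃ k ∈ core C, ∃ r ∈ R, h = k * r ∧
      (r ∈ R₀ ∨ w⁻¹ * r ∈ R₀) := by
    intro h hh
    obtain ⟨r, hr, hre⟩ := M.conj_zi_near hij (mem_cent.1 hh)
    have hrC : r⁻¹ * h ∈ C := mul_mem (inv_mem (core_le C hr)) hh
    rcases hre with e | e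
    · have h0 : r⁻¹ * h ∈ R₀ := ⟨hrC, mem_cent.2 (mul_inv_eq_iff_eq_mul.1 (by
        calc r⁻¹ * h * M.z i * (r⁻¹ * h)⁻¹ = r⁻¹ * (h * M.z i * h⁻¹) * r := by group
          _ = M.z i := by rw [e]; group))⟩
      exact ⟨r, hr, r⁻¹ * h, mem_sup_left h0, by group, Or.inl h0⟩
    · have h0 : w⁻¹ * (r⁻¹ * h) ∈ R₀ := Subgroup.mem_inf.2 ⟨mul_mem (inv_mem hwC) hrC,
        mem_cent.2 (mul_inv_eq_iff_eq_mul.1 (by
        calc w⁻¹ * (r⁻¹ * h) * M.z i * (w⁻¹ * (r⁻¹ * h))⁻¹
            = w⁻¹ * (r⁻¹ * (h * M.z i * h⁻¹) * r) * w := by group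
          _ = w⁻¹ * M.z j * w := by rw [e]; group
          _ = M.z i := by rw [← hwi]; group))⟩
      refine ⟨r, hr, r⁻¹ * h, ?_, by group, Or.inr h0⟩
      have := mul_mem (mem_sup_right (mem_zpowers w) : w ∈ R) (mem_sup_left h0)
      rwa [mul_inv_cancel_left] at this
  have hD : core R₀ ≤ core C := by
    refine absorb hRC (fun h hh => ?_) ((core_le _).trans inf_le_left) (core_odd _) ?_
    · obtain ⟨k, hk, r, hr, e, -⟩ := hsplit h hh
      exact ⟨k, hk, r, hr, e⟩
    · have hwD : w ∈ normalizer (core R₀ : Set G) := by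
        rw [mem_normalizer_iff_map_conj_eq]
        refine Subgroup.eq_of_le_of_card_ge ?_
          (card_map_of_injective (f := ((MulAut.conj w : MulAut G) : G →* G))
            (MulAut.conj w).injective).ge
        rintro _ ⟨d, hd, rfl⟩
        exact core_map_conj hw₀ hd
      have hle : R ≤ normalizer (core R₀ : Set G) := sup_le
        (le_normalizer_iff.2 fun r hr d hd => core_conj hr hd) (zpowers_le.2 hwD)
      exact fun r hr d hd => (mem_normalizer_iff.1 (hle hr) d).1 hd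
  have hR₀dec : ∀ x ∈ R₀, ∃ o ∈ core C, ∃ n ∈ normalizer (A : Set G), x = o * n := by
    intro x hx
    obtain ⟨o, ho, n, hn, rfl⟩ := hZ i x (mem_cent.1 hx.2)
    set d := n * b * n⁻¹ * b⁻¹ with hd
    have hdA : d ∈ A := mul_mem (Base.conj_mem hn hbA) (inv_mem hbA)
    have e : n * b * n⁻¹ = o⁻¹ * b * o := by
      have h : o * n * b * (o * n)⁻¹ = b := by rw [mem_cent.1 hx.1, mul_inv_cancel_right]
      calc n * b * n⁻¹ = o⁻¹ * (o * n * b * (o * n)⁻¹) * o := by group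
        _ = o⁻¹ * b * o := by rw [h]
    have hdθ : d ∈ theta (M.z i) := by
      rw [hd, e, show o⁻¹ * b * o * b⁻¹ = o⁻¹ * (b * o * b⁻¹) by group]
      exact mul_mem (inv_mem ho) (theta_conj_mem (M.comm hbA (M.z_mem i)) ho)
    have hd1 : d = 1 := eq_one_of_odd (orderOf_odd_of_mem (core_odd _) hdθ) (k := 1)
      (by rw [pow_one, pow_two, M.sq hdA])
    have hnb : n * b = b * n := mul_inv_eq_iff_eq_mul.1 (mul_inv_eq_one.1 (hd ▸ hd1))
    have hob : o * b = b * o := by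
      calc o * b = o * (b * n) * n⁻¹ := by group
        _ = o * n * b * n⁻¹ := by rw [← hnb]; group
        _ = b * (o * n) * n⁻¹ := by rw [mem_cent.1 hx.1]
        _ = b * o := by group
    refine ⟨o, hD ?_, n, hn, rfl⟩
    refine le_core (D := theta (M.z i) ⊓ C) (le_inf inf_le_right (inf_le_left.trans (core_le _)))
      ((core_odd _).of_dvd_nat (card_dvd_of_le inf_le_left)) ?_ ⟨ho, mem_cent.2 hob⟩
    exact fun h hh d' hd' => Subgroup.mem_inf.2 ⟨theta_conj_mem (mem_cent.1 hh.2) hd'.1,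
      mul_mem (mul_mem hh.1 hd'.2) (inv_mem hh.1)⟩
  intro x hx
  obtain ⟨k, hk, r, -, rfl, hr⟩ := hsplit x (mem_cent.2 hx)
  rcases hr with hr | hr
  · obtain ⟨o, ho, n, hn, rfl⟩ := hR₀dec r hr
    exact ⟨k * o, mul_mem hk ho, n, hn, by group⟩
  · obtain ⟨o, ho, n, hn, e⟩ := hR₀dec _ hr
    refine ⟨k * (w * o * w⁻¹), mul_mem hk (core_conj hwC ho), w * n, mul_mem hwN hn, ?_⟩
    rw [show r = w * (w⁻¹ * r) by group, e]; group

end Model

end Cfsg.Agent.EightType
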