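import Cfsg.Agent.EightType.Fusion
import Cfsg.Agent.Signalizer.Generation
import Cfsg.Agent.S0071

/-!
The centralizer of an involution inducing a nontrivial permutation.
-/

set_option autoImplicit false
set_option linter.unusedSectionVars false
set_option linter.style.haveILetI false
set_option maxHeartbeats 1000000

namespace Cfsg.Agent.EightType

open Subgroup

universe u

variable {G : Type u} [Group G] [Finite G] {A : Subgroup G}

namespace Model

variable (M : Model A)
include M

/-- An element of odd order permuting the pairs fixed by an involution fixes them. -/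
theorem fix_of_out {v g a : G} (hv : v ∈ normalizer (A : Set G)) (hv2 : orderOf v = 2)
    (hvf : M.f v ≠ 1) (hg : g * v = v * g) (hgo : Odd (orderOf g)) (ha : a ∈ A)
    (hav : a * v = v * a) (h1 : g * a * g⁻¹ ∈ normalizer (A : Set G))
    (h2 : g * (g * a * g⁻¹) * g⁻¹ ∈ normalizer (A : Set G)) : g * a = a * g := by
  rcases eq_or_ne a 1 with rfl | ha1
  · rw [mul_one, one_mul]
  set s := M.f v with hs
  have hs2 : s * s = 1 := M.f_sq hv (Invol.inv_mul_self hv2)
  have hfix : ∀ b ∈ A, b * v = v * b → M.act s b = b := fun b hb hbv => by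
    rw [← M.act_eq hv hb, ← hbv, mul_inv_cancel_right]
  have hcv : ∀ b, b * v = v * b → g * b * g⁻¹ * v = v * (g * b * g⁻¹) := fun b hb => by
    have h := congrArg (fun t => g * t * g⁻¹) hb
    simp only [← conj_mul] at h
    rwa [show g * v * g⁻¹ = v by rw [hg, mul_inv_cancel_right]] at h
  obtain ⟨i₀, hi₀⟩ := a5_fixed_point s hs2 hvf
  have hconj : IsConj a (g * a * g⁻¹) := Invol.isConj_conj g a
  have hconj2 : IsConj a (g * (g * a * g⁻¹) * g⁻¹) :=
    hconj.trans (Invol.isConj_conj g (g * a * g⁻¹))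
  rcases M.types ha ha1 with hz | hb
  · have huniq : ∀ b, M.ZT b → b * v = v * b → b = M.z i₀ := by
      rintro b ⟨i, rfl⟩ hbv
      have := hfix _ (M.z_mem i) hbv
      rw [M.z_act] at this
      rw [(hi₀ i).1 (M.z_inj this)]
    exact mul_inv_eq_iff_eq_mul.1 (by
      rw [huniq _ (M.zt_of_isConj hz h1 hconj) (hcv a hav), huniq a hz hav])
  · obtain ⟨p, q, hpq⟩ := a5_invol_pairs s hs2 hvf
    have hinv : ∀ i, s.1 (s.1 i) = i := fun i => by
      rw [← Equiv.Perm.mul_apply, ← Subgroup.coe_mul, hs2]; rfl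
    have huniq : ∀ b, M.BT b → b * v = v * b →
        b = M.z p * M.z (s.1 p) ∨ b = M.z q * M.z (s.1 q) := by
      rintro b ⟨i, j, hij, rfl⟩ hbv
      have := hfix _ (M.pair_mem i j) hbv
      rw [M.act_map_mul, M.z_act, M.z_act] at this
      have hne : s.1 i ≠ s.1 j := fun h => hij (s.1.injective h)
      obtain ⟨hi, hj⟩ | ⟨hi, -⟩ := M.pair_eq hij hne this
      · exact absurd (((hi₀ i).1 hi).trans ((hi₀ j).1 hj).symm) hij
      · have hmove : s.1 i ≠ i := fun h => hij (h.symm.trans hi)
        subst hi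
        rcases hpq i hmove with rfl | rfl | rfl | rfl
        · exact Or.inl rfl
        · left; rw [hinv, M.comm (M.z_mem _) (M.z_mem _)]
        · exact Or.inr rfl
        · right; rw [hinv, M.comm (M.z_mem _) (M.z_mem _)]
    have u0 := huniq a hb hav
    have u1 := huniq _ (M.bt_of_isConj hb h1 hconj) (hcv a hav)
    have u2 := huniq _ (M.bt_of_isConj hb h2 hconj2) (hcv _ (hcv a hav))
    have hthree : g * a * g⁻¹ = a ∨ g * (g * a * g⁻¹) * g⁻¹ = a ∨
        g * (g * a * g⁻¹) * g⁻¹ = g * a * g⁻¹ := by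
      rcases u0 with e0 | e0 <;> rcases u1 with e1 | e1 <;> rcases u2 with e2 | e2
      all_goals first
        | exact Or.inl (e1.trans e0.symm)
        | exact Or.inr (Or.inl (e2.trans e0.symm))
        | exact Or.inr (Or.inr (e2.trans e1.symm))
    rcases hthree with h | h | h
    · exact mul_inv_eq_iff_eq_mul.1 h
    · refine commute_of_sq_commute hgo ?_
      rw [← mul_inv_eq_iff_eq_mul, mul_inv_rev]
      simpa [mul_assoc] using h
    · exact mul_inv_eq_iff_eq_mul.1 (mul_left_cancel (mul_right_cancel h))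

/-- The centralizer of an outside involution lies in every subgroup containing `N` and the
centralizers of the nonidentity elements of `A`. -/
theorem centV_le {v : G} (hv : v ∈ normalizer (A : Set G)) (hv2 : orderOf v = 2)
    (hvf : M.f v ≠ 1) {H : Subgroup G} (hNH : normalizer (A : Set G) ≤ H)
    (hAH : ∀ a ∈ A, a ≠ 1 → centralizer ({a} : Set G) ≤ H) :
    centralizer ({v} : Set G) ≤ H := by
  haveI : Fact (Nat.Prime 2) := ⟨Nat.prime_two⟩
  set C := centralizer ({v} : Set G) with hC
  set s := M.f v with hs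
  have hs2 : s * s = 1 := M.f_sq hv (Invol.inv_mul_self hv2)
  have hcom : ∀ x : ↥C, (x : G) * v = v * x := fun x => mem_cent.1 x.2
  obtain ⟨T, hTN, hTA⟩ := M.cent_sylow hv hv2
  let v' : ↥C := ⟨v, mem_cent.2 rfl⟩
  have hv'2 : IsPGroup 2 (zpowers v') := IsPGroup.of_card (n := 1) (by
    rw [Nat.card_zpowers, pow_one, ← Subgroup.orderOf_coe]; exact hv2)
  have hv'T : v' ∈ (T : Subgroup ↥C) := by
    have hn : (T : Subgroup ↥C) ≤ normalizer ((zpowers v' : Subgroup ↥C) : Set ↥C) :=
      le_normalizer_iff.2 fun t _ b hb => by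
        obtain ⟨k, rfl⟩ := mem_zpowers_iff.1 hb
        have hc : Commute t v' := Subtype.ext (hcom t)
        rw [(hc.zpow_right k).eq, mul_inv_cancel_right]
        exact zpow_mem (mem_zpowers v') k
    rw [← T.is_maximal' (T.2.to_sup_of_normal_right' hv'2 hn) le_sup_left]
    exact mem_sup_right (mem_zpowers v')
  obtain ⟨K, hKn, hK⟩ := (S0071.result T).2 (by
    intro Q hQT g hg hgc
    have hgo : Odd (orderOf (g : G)) := by
      rw [Subgroup.orderOf_coe]; exact Nat.coprime_two_right.1 hgc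
    set Q' := Q ⊔ zpowers v' with hQ'
    have hQ'T : Q' ≤ (T : Subgroup ↥C) := sup_le hQT (zpowers_le.2 hv'T)
    have hgQ' : ∀ q ∈ Q', g * q * g⁻¹ ∈ Q' := by
      suffices h : Q' ≤ Q'.comap (MulAut.conj g).toMonoidHom from fun q hq => h hq
      refine sup_le (fun q hq => mem_sup_left ((mem_normalizer_iff.1 hg q).1 hq))
        (zpowers_le.2 ?_)
      show g * v' * g⁻¹ ∈ Q'
      rw [(show g * v' = v' * g from Subtype.ext (hcom g)), mul_inv_cancel_right]
      exact mem_sup_right (mem_zpowers v')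
    have hQN : ∀ q ∈ Q', (q : G) ∈ normalizer (A : Set G) := fun q hq => hTN q (hQ'T hq)
    have h2pow : ∀ q ∈ Q', ∃ k : ℕ, (q : G) ^ 2 ^ k = 1 := by
      intro q hq
      obtain ⟨k, hk⟩ := T.2 ⟨q, hQ'T hq⟩
      exact ⟨k, congrArg (fun x : ↥(T : Subgroup ↥C) => ((x : ↥C) : G)) hk⟩
    have hfixA : ∀ q ∈ Q', (q : G) ∈ A → g * q = q * g := by
      intro q hq hqA
      have h1 := hgQ' q hq
      exact Subtype.ext (M.fix_of_out hv hv2 hvf (hcom g) hgo hqA (hcom q) (hQN _ h1)
        (hQN _ (hgQ' _ h1)))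
    have hfix1 : ∀ q ∈ Q', (M.f (q : G) = 1 ∨ M.f (q : G) = s) → g * q = q * g := by
      intro q hq hf
      rcases hf with hf | hf
      · obtain ⟨k, hk⟩ := h2pow q hq
        exact hfixA q hq (M.mem_A_of (hQN q hq) hf hk)
      · have hqv : q * v' ∈ Q' := mul_mem hq (mem_sup_right (mem_zpowers v'))
        obtain ⟨k, hk⟩ := h2pow _ hqv
        have hf' : M.f ((q * v' : ↥C) : G) = 1 := by
          show M.f ((q : G) * v) = 1
          rw [M.f_mul (hQN q hq) hv, hf, hs2]
        have h1 : Commute g (q * v') := hfixA _ hqv (M.mem_A_of (hQN _ hqv) hf' hk)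
        have h2 : Commute g v' := Subtype.ext (hcom g)
        have := h1.mul_right h2.inv_right
        rwa [mul_inv_cancel_right] at this
    have hfsC : ∀ q ∈ Q', M.f (q : G) * s = s * M.f (q : G) := fun q hq => by
      rw [hs, ← M.f_mul (hQN q hq) hv, ← M.f_mul hv (hQN q hq), hcom q]
    refine mem_centralizer_iff.2 fun q hq => ?_
    have hq' : q ∈ Q' := mem_sup_left hq
    suffices g * q = q * g from this.symm
    by_cases hf : M.f (q : G) = 1 ∨ M.f (q : G) = s
    · exact hfix1 q hq' hf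
    push Not at hf
    set q' := g * q * g⁻¹ with hq'def
    have hq'Q : q' ∈ Q' := hgQ' q hq'
    by_cases hf' : M.f (q' : G) = 1 ∨ M.f (q' : G) = s
    · have h := hfix1 q' hq'Q hf'
      rw [hq'def] at h
      have h' : g * q * g⁻¹ = q := by
        have h3 := congrArg (fun t => g⁻¹ * t) h
        simp only [← mul_assoc, inv_mul_cancel, one_mul] at h3
        rw [h3]; group
      exact mul_inv_eq_iff_eq_mul.1 h'
    push Not at hf'
    set c := q⁻¹ * q' with hc
    have hcQ : c ∈ Q' := mul_mem (inv_mem hq') hq'Q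
    have hfc : M.f (c : G) = 1 ∨ M.f (c : G) = s := by
      have hfc' : M.f (c : G) = (M.f (q : G))⁻¹ * M.f (q' : G) := by
        show M.f ((q : G)⁻¹ * (q' : G)) = _
        rw [M.f_mul (inv_mem (hQN q hq')) (hQN q' hq'Q), M.f_inv (hQN q hq')]
      rcases a5_centralizer_invol s hs2 hvf _ (hfsC q hq') hf.1 hf.2 _ (hfsC q' hq'Q) with
        h | h | h | h
      · exact absurd h hf'.1
      · exact absurd h hf'.2
      · left; rw [hfc', h, inv_mul_cancel]
      · right; rw [hfc', h, inv_mul_cancel_left]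
    have hgc' : g * c = c * g := hfix1 c hcQ hfc
    have hpow : ∀ k : ℕ, g ^ k * q * (g ^ k)⁻¹ = q * c ^ k := by
      intro k
      induction k with
      | zero => group
      | succ k ih =>
        rw [pow_succ' g, mul_inv_rev, show g * g ^ k * q * ((g ^ k)⁻¹ * g⁻¹)
          = g * (g ^ k * q * (g ^ k)⁻¹) * g⁻¹ by group, ih,
          show g * (q * c ^ k) * g⁻¹ = (g * q * g⁻¹) * (g * c ^ k * g⁻¹) by group,
          ((show Commute g c from hgc').pow_right k).eq, mul_inv_cancel_right, pow_succ',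
          ← mul_assoc, hc, mul_inv_cancel_left]
    have hk := hpow (orderOf g)
    rw [pow_orderOf_eq_one, inv_one, mul_one, one_mul, left_eq_mul] at hk
    have hco : Odd (orderOf (c : G)) := by
      rw [Subgroup.orderOf_coe]
      exact (Nat.coprime_two_right.1 hgc).of_dvd_nat (orderOf_dvd_of_pow_eq_one hk)
    obtain ⟨k, hk2⟩ := h2pow c hcQ
    have hc1 : c = 1 := Subtype.ext (eq_one_of_odd hco hk2)
    have : q' = q := by rw [hc, inv_mul_eq_one] at hc1; exact hc1.symm
    exact mul_inv_eq_iff_eq_mul.1 this)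
  set X : Subgroup G := K.map C.subtype with hX
  have hXodd : ¬ 2 ∣ Nat.card X := by
    rw [card_map_of_injective C.subtype_injective]
    intro h2
    refine T.not_dvd_index ?_
    have h1 := hK.card_mul_card
    have h3 := (T : Subgroup ↥C).card_mul_index
    rw [← h3, mul_comm] at h1
    rwa [← Nat.eq_of_mul_eq_mul_left Nat.card_pos h1]
  have hXH : X ≤ H := by
    have he : A ⊓ C = M.fixed s := by
      ext a
      constructor
      · rintro ⟨ha, hc⟩
        exact ⟨ha, by rw [← M.act_eq hv ha, ← mem_cent.1 hc, mul_inv_cancel_right]⟩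
      · rintro ⟨ha, hc⟩
        rw [← M.act_eq hv ha] at hc
        exact ⟨ha, mem_cent.2 (mul_inv_eq_iff_eq_mul.1 hc).symm⟩
    refine Signalizer.le_of_forall_centralizer (p := 2) (A := A ⊓ C)
      (Signalizer.elemAb_mono M.elem inf_le_left) ?_ ?_ hXodd
      fun a ha ha1 => inf_le_right.trans (hAH a ha.1 ha1)
    · rw [he, (M.fixed_invol hs2 hvf).1]; norm_num
    · refine le_normalizer_iff.2 ?_
      rintro a ha _ ⟨k, hk, rfl⟩
      exact ⟨⟨a, ha.2⟩ * k * (⟨a, ha.2⟩ : ↥C)⁻¹, hKn.conj_mem k hk _, rfl⟩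
  intro x hx
  haveI := hKn
  obtain ⟨k, hk, t, ht, e⟩ := mem_sup_of_normal_left.1
    (hK.sup_eq_top ▸ mem_top (⟨x, hx⟩ : ↥C))
  have hx' : x = (k : G) * (t : G) := congrArg Subtype.val e.symm
  rw [hx']
  exact mul_mem (hXH ⟨k, hk, rfl⟩) (hNH (hTN t ht))

end Model

end Cfsg.Agent.EightType
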