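import Cfsg.Agent.EightType.A5

/-!
Parity of sets of points away from a given point.
-/

set_option autoImplicit false
set_option maxRecDepth 100000
set_option maxHeartbeats 4000000
set_option synthInstance.maxHeartbeats 400000
set_option synthInstance.maxSize 1024

namespace Cfsg.Agent.EightType

/-- An even number of points other than `i`. -/
abbrev EvenOff (i : Fin 5) (T : Finset (Fin 5)) : Prop := (T.erase i).card % 2 = 0

/-- A set of points giving a power of the element of `i`. -/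
abbrev Small (i : Fin 5) (T : Finset (Fin 5)) : Prop :=
  T = ∅ ∨ T = Finset.univ ∨ T = {i} ∨ T = ({i} : Finset (Fin 5))ᶜ

theorem evenOff_symmDiff : ∀ i : Fin 5, ∀ T : Finset (Fin 5), EvenOff i T →
    ∀ T' : Finset (Fin 5), EvenOff i T' → EvenOff i (symmDiff T T') := by decide

theorem evenOff_compl : ∀ i : Fin 5, ∀ T : Finset (Fin 5), EvenOff i T → EvenOff i Tᶜ := by decide

theorem evenOff_cases : ∀ i j : Fin 5, j ≠ i → ∀ T : Finset (Fin 5),
    EvenOff i T ∨ EvenOff i (symmDiff T {j}) := by decide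

theorem evenOff_single : ∀ i k : Fin 5, EvenOff i {k} → k = i := by decide

theorem evenOff_pair : ∀ i k l : Fin 5, k ≠ i → l ≠ i → k ≠ l → EvenOff i {k, l} := by decide

theorem evenOff_base : ∀ i : Fin 5, EvenOff i ∅ ∧ EvenOff i {i} := by decide

theorem evenOff_norm : ∀ i : Fin 5, ∀ T : Finset (Fin 5), EvenOff i T →
    (i ∉ T ∧ T.card % 2 = 0) ∨ (i ∉ Tᶜ ∧ Tᶜ.card % 2 = 0) := by decide

theorem evenOff_pairs : ∀ i j : Fin 5, j ≠ i → ∀ T : Finset (Fin 5), EvenOff i T →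
    Small i T ∨ ∃ k : Fin 5, k ≠ i ∧ k ≠ j ∧ Small i (symmDiff T {j, k}) := by decide

theorem a5_even_move : ∀ i : Fin 5, ∀ s : A5, s * s = 1 → s.1 i = i → ∀ T : Finset (Fin 5),
    EvenOff i T → Small i (symmDiff T (T.map s.1.toEmbedding)) := by decide

theorem a5_odd_move : ∀ i : Fin 5, ∀ s : A5, s * s = 1 → s ≠ 1 → s.1 i = i →
    ∀ T : Finset (Fin 5), ¬ EvenOff i T → ¬ Small i (symmDiff T (T.map s.1.toEmbedding)) := by
  decide

theorem a5_four_move : ∀ i : Fin 5, ∀ a : A5, a * a = 1 → a ≠ 1 → a.1 i = i → ∀ b : A5,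
    b * b = 1 → b ≠ 1 → b.1 i = i → a ≠ b → ∀ k : Fin 5, k ≠ i → a.1 k ≠ b.1 k := by decide

theorem a5_stab_card : ∀ i : Fin 5,
    (Finset.univ.filter fun s : A5 => s.1 i = i).card = 12 ∧
    (Finset.univ.filter fun s : A5 => s * s = 1 ∧ s.1 i = i).card = 4 := by decide

theorem a5_two_inv : ∀ i : Fin 5, ∃ a : A5, a * a = 1 ∧ a ≠ 1 ∧ a.1 i = i ∧
    ∃ b : A5, b * b = 1 ∧ b ≠ 1 ∧ b.1 i = i ∧ a ≠ b := by decide

end Cfsg.Agent.EightType
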