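import Cfsg.Agent.EightType.Fusion
import Cfsg.Agent.EightType.Parity
import Cfsg.Agent.S0111

/-!
A subgroup of index two in the centralizer of the element of a point, by transfer.
-/

set_option autoImplicit false
set_option linter.unusedSectionVars false
set_option linter.style.haveILetI false
set_option maxHeartbeats 1000000

namespace Cfsg.Agent.EightType

open Subgroup

universe u

variable {G : Type u} [Group G] [Finite G] {A : Subgroup G}

namespace Model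

variable (M : Model A)
include M

/-- The elements of `A` attached to sets with an even number of points other than `i`. -/
noncomputable def even (i : Fin 5) : Subgroup G where
  carrier := {a | ∃ T, EvenOff i T ∧ M.ev T = a}
  one_mem' := ⟨∅, (evenOff_base i).1, M.ev_empty⟩
  mul_mem' := by
    rintro _ _ ⟨T, hT, rfl⟩ ⟨T', hT', rfl⟩
    exact ⟨_, evenOff_symmDiff i T hT T' hT', (M.ev_mul T T').symm⟩
  inv_mem' := by
    rintro _ ⟨T, hT, rfl⟩
    exact ⟨T, hT, (M.inv_eq (M.ev_mem T)).symm⟩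

theorem even_le (i : Fin 5) : M.even i ≤ A := by
  rintro _ ⟨T, -, rfl⟩; exact M.ev_mem T

theorem evenOff_of_mem {i : Fin 5} {T : Finset (Fin 5)} (h : M.ev T ∈ M.even i) : EvenOff i T := by
  obtain ⟨T', hT', he⟩ := h
  rcases M.ev_eq he with e | e
  · exact e ▸ hT'
  · exact e ▸ evenOff_compl i T' hT'

theorem z_mem_even (i : Fin 5) : M.z i ∈ M.even i := ⟨{i}, (evenOff_base i).2, M.ev_single i⟩

theorem small_mem {i : Fin 5} {T : Finset (Fin 5)} (h : Small i T) :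
    M.ev T = 1 ∨ M.ev T = M.z i := by
  rcases h with rfl | rfl | rfl | rfl
  exacts [Or.inl M.ev_empty, Or.inl M.ev_univ, Or.inr (M.ev_single i),
    Or.inr ((M.ev_compl {i}).trans (M.ev_single i))]

theorem small_of {i : Fin 5} {T : Finset (Fin 5)} (h : M.ev T = 1 ∨ M.ev T = M.z i) :
    Small i T := by
  rcases h with h | h
  · rcases M.ev_eq_one h with e | e
    exacts [Or.inl e, Or.inr (Or.inl e)]
  · rw [← M.ev_single i] at h
    rcases M.ev_eq h.symm with e | e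
    exacts [Or.inr (Or.inr (Or.inl e)), Or.inr (Or.inr (Or.inr e))]

/-- The data produced by transfer. -/
structure ZData (i j : Fin 5) where
  Q : Subgroup G
  M₁ : Subgroup G
  Q_le : Q ≤ M₁
  le_cent : M₁ ≤ centralizer ({M.z i} : Set G)
  normal : ∀ c, c * M.z i = M.z i * c → ∀ x ∈ M₁, c * x * c⁻¹ ∈ M₁
  cover : ∀ c, c * M.z i = M.z i * c → c ∈ M₁ ∨ c * M.z j ∈ M₁
  odd : Odd (Q.relIndex M₁)
  two : IsPGroup 2 Q
  le_N : Q ≤ normalizer (A : Set G)
  even_le_Q : M.even i ≤ Q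
  Q_inf : ∀ x ∈ Q, x ∈ A → x ∈ M.even i
  comm : ∀ x ∈ Q, ∀ y ∈ Q, x * y * x⁻¹ * y⁻¹ ∈ zpowers (M.z i)
  sq : ∀ x ∈ Q, x * x ∈ zpowers (M.z i)
  conj : ∀ x ∈ Q, M.z j * x * (M.z j)⁻¹ ∈ Q
  cov : ∀ a ∈ M.even i, ∃ x ∈ Q,
    a⁻¹ * (x * (M.z j * x * (M.z j)⁻¹)) ∈ zpowers (M.z i)

theorem exists_zdata {i j : Fin 5} (hji : j ≠ i) : Nonempty (ZData M i j) := by
  classical
  haveI : Fact (Nat.Prime 2) := ⟨Nat.prime_two⟩
  set z := M.z i with hz
  set C := centralizer ({z} : Set G) with hC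
  have hzA : z ∈ A := M.z_mem i
  have hAC : A ≤ C := fun a ha => mem_cent.2 (M.comm ha hzA)
  have hfix : ∀ n ∈ normalizer (A : Set G), n ∈ C → (M.f n).1 i = i := fun n hn hc =>
    M.z_inj (by rw [← M.conj_z hn i, mem_cent.1 hc, mul_inv_cancel_right])
  have hCN : ∀ n ∈ normalizer (A : Set G), (M.f n).1 i = i → n ∈ C := fun n hn h =>
    mem_cent.2 (mul_inv_eq_iff_eq_mul.1 (by rw [hz, M.conj_z hn, h]))
  obtain ⟨TC, hTN', hTA'⟩ := M.cent_sylow (Base.le_nz hzA) (M.orderOf_two hzA (M.z_ne i))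
  let T : Subgroup G := (TC : Subgroup ↥C).map C.subtype
  have hTC : T ≤ C := map_subtype_le _
  have hTN : ∀ t ∈ T, t ∈ normalizer (A : Set G) := by
    rintro _ ⟨t, ht, rfl⟩; exact hTN' t ht
  have hTA : A ≤ T := fun a ha => ⟨⟨a, hAC ha⟩, hTA' a (hAC ha) ha, rfl⟩
  have hT2 : ∀ t ∈ T, ∃ k : ℕ, t ^ 2 ^ k = 1 := by
    rintro _ ⟨t, ht, rfl⟩
    obtain ⟨k, hk⟩ := TC.2 ⟨t, ht⟩
    exact ⟨k, congrArg (fun x : ↥(TC : Subgroup ↥C) => ((x : ↥C) : G)) hk⟩
  have hTker : ∀ t ∈ T, M.f t = 1 → t ∈ A := fun t ht h => by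
    obtain ⟨k, hk⟩ := hT2 t ht
    exact M.mem_A_of (hTN t ht) h hk
  have hfsq : ∀ t ∈ T, M.f t * M.f t = 1 := by
    intro t ht
    obtain ⟨k, hk⟩ := hT2 t ht
    refine a5_two_power _ (orderOf_dvd_iff_pow_eq_one.1 ?_)
    obtain ⟨m, -, hm⟩ := (Nat.dvd_prime_pow Nat.prime_two).1
      (orderOf_dvd_of_pow_eq_one (show M.f t ^ 2 ^ k = 1 by
        rw [← M.f_pow (hTN t ht), hk, M.f_one]))
    have h60 : Nat.card A5 = 60 := by rw [nat_card_alternatingGroup]; simp [Nat.factorial]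
    have hd : 2 ^ m ∣ 60 := hm ▸ h60 ▸ orderOf_dvd_natCard (M.f t)
    rw [hm, show (4 : ℕ) = 2 ^ 2 from rfl]
    refine pow_dvd_pow 2 ?_
    by_contra hc
    have h8 := (pow_dvd_pow 2 (show 3 ≤ m by omega)).trans hd
    norm_num at h8
  -- every involution fixing `i` is induced by an involution of `T`
  have hlift : ∀ σ : A5, σ * σ = 1 → σ ≠ 1 → σ.1 i = i → ∃ x ∈ T, x * x = 1 ∧ M.f x = σ := by
    let CN := (normalizer (A : Set G)).subgroupOf C
    let St : Subgroup A5 :=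
      { carrier := {s | s.1 i = i}
        one_mem' := rfl
        mul_mem' := fun {a b} (ha : a.1 i = i) (hb : b.1 i = i) => by
          show (a * b).1 i = i
          simp [Equiv.Perm.mul_apply, ha, hb]
        inv_mem' := fun {a} (ha : a.1 i = i) => by
          show (a⁻¹).1 i = i
          simp only [Subgroup.coe_inv, Equiv.Perm.inv_eq_iff_eq, ha] }
    let ψ : ↥CN →* ↥St :=
      { toFun := fun n => ⟨M.f ((n : ↥C) : G), hfix _ n.2 (n : ↥C).2⟩
        map_one' := Subtype.ext M.f_one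
        map_mul' := fun a b => Subtype.ext (M.f_mul a.2 b.2) }
    have hψ : Function.Surjective ψ := fun s =>
      ⟨⟨⟨M.lift s.1, hCN _ (M.lift_mem _) (by rw [M.f_lift]; exact s.2)⟩, M.lift_mem s.1⟩,
        Subtype.ext (M.f_lift s.1)⟩
    have hle : (TC : Subgroup ↥C) ≤ CN := fun t ht => hTN' t ht
    let P := (TC.subtype hle).mapSurjective hψ
    have hSt : Nat.card St = 12 := by
      rw [Nat.card_congr (show ↥St ≃ {s : A5 // s.1 i = i} from
        Equiv.subtypeEquivRight fun s => Iff.rfl), Nat.card_eq_fintype_card, Fintype.card_subtype]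
      exact (a5_stab_card i).1
    have hP : 2 ^ 2 ∣ Nat.card (P : Subgroup ↥St) :=
      P.pow_dvd_card_of_pow_dvd_card (by rw [hSt]; norm_num)
    have hmem : ∀ p ∈ (P : Subgroup ↥St), ∃ t ∈ T, M.f t = (p : A5) := by
      rintro _ ⟨t, ht, rfl⟩
      exact ⟨((t : ↥C) : G), ⟨_, ht, rfl⟩, rfl⟩
    let F : ↥(P : Subgroup ↥St) → {s : A5 // s * s = 1 ∧ s.1 i = i} := fun p =>
      ⟨(p : ↥St).1, by
        obtain ⟨t, ht, e⟩ := hmem _ p.2
        exact ⟨e ▸ hfsq t ht, (p : ↥St).2⟩⟩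
    have hinj : Function.Injective F := fun p q h => Subtype.ext (Subtype.ext
      (congrArg (fun x : {s : A5 // s * s = 1 ∧ s.1 i = i} => x.1) h))
    have h4 : Nat.card {s : A5 // s * s = 1 ∧ s.1 i = i} = 4 := by
      rw [Nat.card_eq_fintype_card, Fintype.card_subtype]; exact (a5_stab_card i).2
    have hbij := (Nat.bijective_iff_injective_and_card F).2 ⟨hinj, le_antisymm
      (Nat.card_le_card_of_injective F hinj) (by rw [h4]; exact Nat.le_of_dvd Nat.card_pos hP)⟩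
    intro σ hσ hσ1 hσi
    obtain ⟨p, hp⟩ := hbij.2 ⟨σ, hσ, hσi⟩
    obtain ⟨t, ht, e⟩ := hmem _ p.2
    have e' : M.f t = σ := e.trans (congrArg Subtype.val hp)
    have hk : M.f (t * t) = 1 := by rw [M.f_mul (hTN t ht) (hTN t ht), e', hσ]
    have htt : t * t ∈ A := hTker _ (mul_mem ht ht) hk
    obtain ⟨a, ha, hae⟩ := (M.fixed_invol hσ hσ1).2 (t * t) ⟨htt, by
      rw [← e', ← M.act_eq (hTN t ht) htt]; group⟩
    refine ⟨a * t, mul_mem (hTA ha) ht, ?_, ?_⟩
    · have e1 : a * t * (a * t) = a * (t * a * t⁻¹) * (t * t) := by group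
      rw [e1, M.act_eq (hTN t ht) ha, e', hae, M.sq htt]
    · rw [M.f_mul (Base.le_nz ha) (hTN t ht), M.f_A ha, e', one_mul]
  obtain ⟨σ, hσ, hσ1, hσi, τ, hτ, hτ1, hτi, hστ⟩ := a5_two_inv i
  obtain ⟨v, hvT, hv2, hvf⟩ := hlift σ hσ hσ1 hσi
  obtain ⟨u, huT, hu2, huf⟩ := hlift τ hτ hτ1 hτi
  obtain ⟨hcom, hστ1, hfour⟩ := a5_four i σ hσ hσ1 hσi τ hτ hτ1 hτi hστ
  have hvN := hTN v hvT
  have huN := hTN u huT
  have hvi : v⁻¹ = v := inv_eq_of_mul_eq_one_left hv2
  have hui : u⁻¹ = u := inv_eq_of_mul_eq_one_left hu2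
  set Z := zpowers z with hZ
  have hzZ : z ∈ Z := mem_zpowers z
  -- commutator of two involutions
  have hc : v * u * (v * u) ∈ Z := by
    set c := v * u * (v * u) with hc
    have hcA : c ∈ A := by
      refine hTker _ (mul_mem (mul_mem hvT huT) (mul_mem hvT huT)) ?_
      rw [hc, M.f_mul (mul_mem hvN huN) (mul_mem hvN huN), M.f_mul hvN huN, hvf, huf]
      calc σ * τ * (σ * τ) = σ * (τ * σ) * τ := by group
        _ = σ * σ * (τ * τ) := by rw [← hcom]; group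
        _ = 1 := by rw [hσ, hτ, one_mul]
    have hci : c⁻¹ = u * v * (u * v) := by rw [hc, mul_inv_rev, mul_inv_rev, hvi, hui]
    have h1 : M.act σ c = c := by
      rw [← hvf, ← M.act_eq hvN hcA]
      calc v * c * v⁻¹ = (v * v) * (u * v * u) * v⁻¹ := by rw [hc]; group
        _ = u * v * (u * v) := by rw [hv2, hvi, one_mul]; group
        _ = c := hci.symm.trans (M.inv_eq hcA)
    have h2 : M.act τ c = c := by
      rw [← huf, ← M.act_eq huN hcA]
      calc u * c * u⁻¹ = u * v * (u * v) * (u * u⁻¹) := by rw [hc]; group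
        _ = c := by rw [mul_inv_cancel, mul_one]; exact hci.symm.trans (M.inv_eq hcA)
    rcases eq_or_ne c 1 with h | h
    · rw [h]; exact one_mem _
    rcases M.types hcA h with ⟨k, hk⟩ | ⟨k, l, hkl, hk⟩
    · rw [hk, M.z_act] at h1
      obtain ⟨i₀, hi₀⟩ := a5_fixed_point σ hσ hσ1
      rw [hk, (hi₀ k).1 (M.z_inj h1), ← (hi₀ i).1 hσi]
      exact hzZ
    · exfalso
      rw [hk, M.act_map_mul, M.z_act, M.z_act] at h1 h2
      obtain ⟨i₀, hi₀⟩ := a5_fixed_point σ hσ hσ1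
      obtain ⟨j₀, hj₀⟩ := a5_fixed_point τ hτ hτ1
      rcases M.pair_eq hkl (fun e => hkl (σ.1.injective e)) h1 with ⟨ek, el⟩ | ⟨ek, -⟩
      · exact hkl (((hi₀ k).1 ek).trans ((hi₀ l).1 el).symm)
      rcases M.pair_eq hkl (fun e => hkl (τ.1.injective e)) h2 with ⟨fk, fl⟩ | ⟨fk, -⟩
      · exact hkl (((hj₀ k).1 fk).trans ((hj₀ l).1 fl).symm)
      refine a5_four_move i σ hσ hσ1 hσi τ hτ hτ1 hτi hστ k ?_ (ek.trans fk.symm)
      rintro rfl
      exact hkl (hσi.symm.trans ek)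
  -- conjugation preserves parity
  set E := M.even i with hE
  have hZE : Z ≤ E := zpowers_le.2 (M.z_mem_even i)
  have hmoveZ : ∀ x ∈ T, ∀ a ∈ E, a * (x * a * x⁻¹) ∈ Z := by
    rintro x hx _ ⟨S, hS, rfl⟩
    rw [M.act_eq (hTN x hx) (M.ev_mem S), M.act_ev, M.ev_mul]
    rcases M.small_mem (a5_even_move i (M.f x) (hfsq x hx) (hfix x (hTN x hx) (hTC hx)) S hS) with
      h | h <;> rw [h]
    exacts [one_mem _, hzZ]
  have hnormE : ∀ x ∈ T, ∀ a ∈ E, x * a * x⁻¹ ∈ E := fun x hx a ha => by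
    have h := mul_mem (inv_mem ha) (hZE (hmoveZ x hx a ha))
    rwa [inv_mul_cancel_left] at h
  set W := E ⊔ zpowers v with hW
  have hWn : zpowers v ≤ normalizer (E : Set G) :=
    le_normalizer_iff.2 fun p hp a ha => hnormE p (zpowers_le.2 hvT hp) a ha
  set Q := W ⊔ zpowers u with hQ
  have hWT : W ≤ T := sup_le ((M.even_le i).trans hTA) (zpowers_le.2 hvT)
  have hQT : Q ≤ T := sup_le hWT (zpowers_le.2 huT)
  have hQn : zpowers u ≤ normalizer (W : Set G) := by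
    refine le_normalizer_iff.2 fun p hp => ?_
    suffices h : W ≤ W.comap (MulAut.conj p).toMonoidHom from fun w hw => h hw
    refine sup_le (fun a ha => mem_sup_left (hnormE p (zpowers_le.2 huT hp) a ha))
      (zpowers_le.2 ?_)
    show p * v * p⁻¹ ∈ W
    rcases Int.even_or_odd' (mem_zpowers_iff.1 hp).choose with ⟨l, hl | hl⟩
    all_goals
      have hp' := (mem_zpowers_iff.1 hp).choose_spec
      rw [hl] at hp'
      rw [← hp']
    · rw [zpow_mul, zpow_two, hu2, one_zpow, one_mul, inv_one, mul_one]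
      exact mem_sup_right (mem_zpowers v)
    · rw [zpow_add_one, zpow_mul, zpow_two, hu2, one_zpow, one_mul]
      have e : u * v * u⁻¹ = (v * u * (v * u))⁻¹ * v⁻¹ := by
        rw [mul_inv_rev, mul_inv_rev, hvi, hui]
        calc u * v * u = u * v * u * (v * v) := by rw [hv2, mul_one]
          _ = u * v * (u * v) * v := by group
      rw [e]
      exact mul_mem (inv_mem (mem_sup_left (hZE hc))) (inv_mem (mem_sup_right (mem_zpowers v)))
  have hzp : ∀ {x p : G}, x * x = 1 → p ∈ zpowers x → p = 1 ∨ p = x := by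
    intro x p hx hp
    obtain ⟨k, rfl⟩ := mem_zpowers_iff.1 hp
    rcases Int.even_or_odd' k with ⟨l, rfl | rfl⟩
    · left; rw [zpow_mul, zpow_two, hx, one_zpow]
    · right; rw [zpow_add_one, zpow_mul, zpow_two, hx, one_zpow, one_mul]
  have hform : ∀ x ∈ Q, ∃ a ∈ E, ∃ p, (p = 1 ∨ p = v) ∧ ∃ q, (q = 1 ∨ q = u) ∧ x = a * p * q := by
    intro x hx
    have hx' : x ∈ ((W ⊔ zpowers u : Subgroup G) : Set G) := hx
    rw [coe_mul_of_right_le_normalizer_left W (zpowers u) hQn] at hx'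
    obtain ⟨w, hw, q, hq, rfl⟩ := hx'
    have hw' : w ∈ ((E ⊔ zpowers v : Subgroup G) : Set G) := hw
    rw [coe_mul_of_right_le_normalizer_left E (zpowers v) hWn] at hw'
    obtain ⟨a, ha, p, hp, rfl⟩ := hw'
    exact ⟨a, ha, p, hzp hv2 hp, q, hzp hu2 hq, rfl⟩
  have hvQ : v ∈ Q := mem_sup_left (mem_sup_right (mem_zpowers v))
  have huQ : u ∈ Q := mem_sup_right (mem_zpowers u)
  have hEQ : E ≤ Q := le_sup_left.trans le_sup_left
  have hQA : ∀ x ∈ Q, x ∈ A → x ∈ E := by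
    intro x hx hxA
    obtain ⟨a, ha, p, hp, q, hq, rfl⟩ := hform x hx
    have haA := M.even_le i ha
    have h := M.f_A hxA
    rcases hp with rfl | rfl <;> rcases hq with rfl | rfl
    · simpa using ha
    · rw [mul_one, M.f_mul (Base.le_nz haA) huN, M.f_A haA, one_mul, huf] at h
      exact absurd h hτ1
    · rw [mul_one, M.f_mul (Base.le_nz haA) hvN, M.f_A haA, one_mul, hvf] at h
      exact absurd h hσ1
    · rw [M.f_mul (mul_mem (Base.le_nz haA) hvN) huN, M.f_mul (Base.le_nz haA) hvN, M.f_A haA,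
        one_mul, hvf, huf] at h
      exact absurd h hστ1
  have hTform : ∀ t ∈ T, ∃ a ∈ A, ∃ e ∈ Q, t = a * e := by
    intro t ht
    have key : ∀ e ∈ Q, M.f e = M.f t → ∃ a ∈ A, ∃ e ∈ Q, t = a * e := by
      intro e he hfe
      refine ⟨t * e⁻¹, hTker _ (mul_mem ht (inv_mem (hQT he))) ?_, e, he, by group⟩
      rw [M.f_mul (hTN t ht) (inv_mem (hTN e (hQT he))), M.f_inv (hTN e (hQT he)), hfe,
        mul_inv_cancel]
    rcases hfour _ (hfsq t ht) (hfix t (hTN t ht) (hTC ht)) with h | h | h | h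
    · exact key 1 (one_mem _) (M.f_one.trans h.symm)
    · exact key v hvQ (hvf.trans h.symm)
    · exact key u huQ (huf.trans h.symm)
    · exact key _ (mul_mem hvQ huQ) (by rw [M.f_mul hvN huN, hvf, huf, h])
  have hzjA := M.z_mem j
  have hzj2 := M.sq hzjA
  have hzjQ : M.z j ∉ Q := fun h => hji (evenOff_single i j
    (M.evenOff_of_mem (by rw [M.ev_single]; exact hQA _ h hzjA)))
  have hdich : ∀ t ∈ T, t ∈ Q ∨ M.z j * t ∈ Q := by
    intro t ht
    obtain ⟨a, ha, e, he, rfl⟩ := hTform t ht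
    obtain ⟨S, rfl⟩ := M.ev_surj ha
    rcases evenOff_cases i j hji S with h | h
    · exact Or.inl (mul_mem (hEQ ⟨S, h, rfl⟩) he)
    · right
      rw [← mul_assoc, M.comm hzjA (M.ev_mem S), ← M.ev_single j, M.ev_mul]
      exact mul_mem (hEQ ⟨_, h, rfl⟩) he
  set QC := Q.subgroupOf C with hQC
  have hQCT : QC ≤ (TC : Subgroup ↥C) := by
    intro x hx
    obtain ⟨t, ht, e⟩ := hQT (mem_subgroupOf.1 hx)
    rwa [show x = t from Subtype.ext e.symm]
  let zj : ↥C := ⟨M.z j, hAC hzjA⟩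
  have hrel : QC.relIndex (TC : Subgroup ↥C) = 2 := by
    rw [relIndex, index_eq_two_iff']
    refine ⟨⟨zj, hTA' _ _ hzjA⟩, fun b => ?_⟩
    simp only [mem_subgroupOf, Subgroup.coe_mul, hQC]
    show Xor (M.z j * ((b : ↥C) : G) ∈ Q) (((b : ↥C) : G) ∈ Q)
    rcases hdich ((b : ↥C) : G) ⟨_, b.2, rfl⟩ with h | h
    · refine Or.inr ⟨h, fun h' => hzjQ ?_⟩
      have := mul_mem h' (inv_mem h)
      rwa [mul_inv_cancel_right] at this
    · refine Or.inl ⟨h, fun h' => hzjQ ?_⟩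
      have := mul_mem h (inv_mem h')
      rwa [mul_inv_cancel_right] at this
  obtain ⟨H, hHn, hH2, hzjH⟩ : ∃ H : Subgroup ↥C, H.Normal ∧ H.index = 2 ∧ zj ∉ H := by
    refine (S0111.result TC QC hQCT hrel zj ?_ (hTA' _ _ hzjA) fun h => hzjQ
      (mem_subgroupOf.1 h)).resolve_right ?_
    · rw [← Subgroup.orderOf_coe]; exact M.orderOf_two hzjA (M.z_ne j)
    · rintro ⟨g, hg⟩
      have hgQ : (g : G) * M.z j * (g : G)⁻¹ ∈ Q := mem_subgroupOf.1 hg
      have hZT := M.zt_of_isConj ⟨j, rfl⟩ (hTN _ (hQT hgQ)) (Invol.isConj_conj (g : G) (M.z j))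
      obtain ⟨k, hk⟩ := hZT
      have hk' : EvenOff i {k} := M.evenOff_of_mem (by
        rw [M.ev_single, ← hk]
        exact hQA _ hgQ (hk ▸ M.z_mem k))
      rw [evenOff_single i k hk'] at hk
      refine hji (M.z_inj ?_)
      calc M.z j = (g : G)⁻¹ * ((g : G) * M.z j * (g : G)⁻¹) * g := by group
        _ = (g : G)⁻¹ * (z * g) := by rw [hk, mul_assoc]
        _ = z := by rw [← mem_cent.1 g.2]; group
  haveI := hHn
  set M₁ := H.map C.subtype with hM₁
  have hM₁C : M₁ ≤ C := map_subtype_le _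
  have hmemM : ∀ (x : G) (hx : x ∈ C), x ∈ M₁ ↔ (⟨x, hx⟩ : ↥C) ∈ H := by
    intro x hx
    constructor
    · rintro ⟨y, hy, e⟩
      rwa [show (⟨x, hx⟩ : ↥C) = y from Subtype.ext e.symm]
    · exact fun h => ⟨_, h, rfl⟩
  have hnorm : ∀ c ∈ C, ∀ x ∈ M₁, c * x * c⁻¹ ∈ M₁ := by
    rintro c hc _ ⟨y, hy, rfl⟩
    exact ⟨_, hHn.conj_mem y hy ⟨c, hc⟩, rfl⟩
  have hmul : ∀ {x y : G}, x ∈ C → y ∈ C → (x * y ∈ M₁ ↔ (x ∈ M₁ ↔ y ∈ M₁)) := by
    intro x y hx hy
    rw [hmemM _ (mul_mem hx hy), hmemM _ hx, hmemM _ hy]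
    exact mul_mem_iff_of_index_two hH2 (a := (⟨x, hx⟩ : ↥C)) (b := ⟨y, hy⟩)
  have hzjM : M.z j ∉ M₁ := fun h => hzjH ((hmemM _ (hAC hzjA)).1 h)
  have hzk : ∀ k, k ≠ i → M.z k ∉ M₁ := by
    intro k hk h
    rcases eq_or_ne j k with rfl | hjk
    · exact hzjM h
    obtain ⟨s, -, -, hsi, hsj⟩ := a5_invol_move i j k hji hk hjk
    have hn := M.lift_mem s
    have hc : M.lift s ∈ C := hCN _ hn (by rw [M.f_lift]; exact hsi)
    refine hzjM ?_
    have e : M.lift s * M.z j * (M.lift s)⁻¹ = M.z k := by rw [M.conj_z hn, M.f_lift, hsj]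
    have := hnorm _ (inv_mem hc) _ h
    rwa [← e, show (M.lift s)⁻¹ * (M.lift s * M.z j * (M.lift s)⁻¹) * (M.lift s)⁻¹⁻¹ = M.z j by
      group] at this
  have hevM : ∀ S : Finset (Fin 5), i ∉ S → (M.ev S ∈ M₁ ↔ S.card % 2 = 0) := by
    intro S
    induction S using Finset.induction with
    | empty => exact fun _ => by simp [M.ev_empty, one_mem]
    | insert k S hk ih =>
      intro hi
      have hki : k ≠ i := fun e => hi (e ▸ Finset.mem_insert_self k S)
      have e : M.ev (insert k S) = M.z k * M.ev S := by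
        rw [← M.ev_single k, M.ev_mul]
        congr 1
        ext x
        simp only [Finset.mem_insert, Finset.mem_symmDiff, Finset.mem_singleton]
        constructor
        · rintro (rfl | hx)
          exacts [Or.inl ⟨rfl, hk⟩, Or.inr ⟨hx, fun e => hk (e ▸ hx)⟩]
        · rintro (⟨rfl, -⟩ | ⟨hx, -⟩)
          exacts [Or.inl rfl, Or.inr hx]
      rw [e, hmul (hAC (M.z_mem k)) (hAC (M.ev_mem S)),
        ih fun h => hi (Finset.mem_insert_of_mem h), Finset.card_insert_of_notMem hk]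
      simp only [hzk k hki, false_iff]
      omega
  have hEM : E ≤ M₁ := by
    rintro _ ⟨S, hS, rfl⟩
    rcases evenOff_norm i S hS with ⟨h1, h2⟩ | ⟨h1, h2⟩
    · exact (hevM S h1).2 h2
    · rw [← M.ev_compl]; exact (hevM _ h1).2 h2
  have hsame : ∀ x ∈ T, x * x = 1 → M.f x ≠ 1 → ∀ y ∈ T, y * y = 1 → M.f y ≠ 1 →
      x ∈ M₁ → y ∈ M₁ := by
    intro x hx hx2 hxf y hy hy2 hyf hxM
    obtain ⟨s, hsi, hs⟩ := a5_stab_conj i _ (hfsq x hx) hxf (hfix x (hTN x hx) (hTC hx)) _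
      (hfsq y hy) hyf (hfix y (hTN y hy) (hTC hy))
    have hm := M.lift_mem s
    have hmC : M.lift s ∈ C := hCN _ hm (by rw [M.f_lift]; exact hsi)
    have hf : M.f (M.lift s * x * (M.lift s)⁻¹) = M.f y := by
      rw [M.f_conj hm (hTN x hx), M.f_lift, hs]
    obtain ⟨n, hn, hnf, hne⟩ := M.conj_of_f_eq (mul_mem (mul_mem hm (hTN x hx)) (inv_mem hm))
      (hTN y hy) (by rw [conj_mul, hx2, mul_one, mul_inv_cancel]) hy2 hf (hf ▸ hyf)
    rw [← hne]
    exact hnorm n (hCN n hn (by rw [hnf]; rfl)) _ (hnorm _ hmC _ hxM)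
  have hvM : v ∈ M₁ := by
    by_contra hvM
    obtain ⟨w, hwT, hw2, hwf⟩ := hlift (σ * τ) (by
      calc σ * τ * (σ * τ) = σ * (τ * σ) * τ := by group
        _ = σ * σ * (τ * τ) := by rw [← hcom]; group
        _ = 1 := by rw [hσ, hτ, one_mul]) hστ1 (by simp [Equiv.Perm.mul_apply, hσi, hτi])
    have hw : w ∉ M₁ := fun h => hvM (hsame w hwT hw2 (hwf ▸ hστ1) v hvT hv2 (hvf ▸ hσ1) h)
    have hu : u ∉ M₁ := fun h => hvM (hsame u huT hu2 (huf ▸ hτ1) v hvT hv2 (hvf ▸ hσ1) h)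
    have ha : v * u * w ∈ A := by
      refine hTker _ (mul_mem (mul_mem hvT huT) hwT) ?_
      rw [M.f_mul (mul_mem hvN huN) (hTN w hwT), M.f_mul hvN huN, hvf, huf, hwf]
      calc σ * τ * (σ * τ) = σ * (τ * σ) * τ := by group
        _ = σ * σ * (τ * τ) := by rw [← hcom]; group
        _ = 1 := by rw [hσ, hτ, one_mul]
    have haM : v * u * w ∉ M₁ := by
      rw [hmul (mul_mem (hTC hvT) (hTC huT)) (hTC hwT), hmul (hTC hvT) (hTC huT)]
      simp [hvM, hu, hw]
    obtain ⟨S, hS⟩ := M.ev_surj ha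
    have hodd : ¬ EvenOff i S := fun h => haM (hS ▸ hEM ⟨S, h, rfl⟩)
    refine a5_odd_move i (σ * τ) (by rw [← hwf]; exact hfsq w hwT) hστ1
      (by simp [Equiv.Perm.mul_apply, hσi, hτi]) S hodd (M.small_of ?_)
    have e : v * u * (v * u) = (v * u * w) * (w * (v * u * w) * w⁻¹) := by
      rw [inv_eq_of_mul_eq_one_left hw2]
      calc v * u * (v * u) = v * u * (w * w) * (v * u) * (w * w) := by rw [hw2, mul_one, mul_one]
        _ = _ := by group
    have h2 := hc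
    rw [e, M.act_eq (hTN w hwT) ha, hwf, ← hS, M.act_ev, M.ev_mul] at h2
    exact hzp (M.sq hzA) h2
  have hinvM : ∀ x ∈ T, x * x = 1 → M.f x ≠ 1 → x ∈ M₁ := fun x hx hx2 hxf =>
    hsame v hvT hv2 (hvf ▸ hσ1) x hx hx2 hxf hvM
  have huM : u ∈ M₁ := hinvM u huT hu2 (huf ▸ hτ1)
  have hQM : Q ≤ M₁ := sup_le (sup_le hEM (zpowers_le.2 hvM)) (zpowers_le.2 huM)
  have hTM : ∀ t ∈ T, t ∈ M₁ → t ∈ Q := by
    intro t ht htM
    refine (hdich t ht).resolve_right fun h => hzjM ?_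
    have := mul_mem (hQM h) (inv_mem htM)
    rwa [mul_inv_cancel_right] at this
  have hodd : Odd (Q.relIndex M₁) := by
    have e1 : Q = QC.map C.subtype := (map_subgroupOf_eq_of_le (hQT.trans hTC)).symm
    rw [e1, hM₁, relIndex_map_map_of_injective _ _ C.subtype_injective]
    have hQH : QC ≤ H := fun x hx => (hmemM x x.2).1 (hQM (mem_subgroupOf.1 hx))
    have h1 := relIndex_mul_index hQH
    have h2 := relIndex_mul_index hQCT
    rw [hH2] at h1
    rw [hrel] at h2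
    have h3 : QC.relIndex H = (TC : Subgroup ↥C).index := by omega
    rw [h3]
    exact Nat.odd_iff.2 (Nat.two_dvd_ne_zero.1 TC.not_dvd_index)
  -- modulo `⟨z⟩` the group `Q` is elementary abelian
  have hQ2 : IsPGroup 2 Q := (TC.2.map C.subtype).to_le hQT
  have hZc : ∀ c ∈ Z, ∀ x ∈ C, c * x = x * c := by
    intro c hc x hx
    rcases hzp (M.sq hzA) hc with rfl | rfl
    · rw [one_mul, mul_one]
    · exact (mem_cent.1 hx).symm
  have hgens : ∀ x ∈ Q, ∀ y ∈ Q, x * y * x⁻¹ * y⁻¹ ∈ Z := by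
    set K : G → Subgroup G := fun y =>
      { carrier := {x | x ∈ C ∧ x * y * x⁻¹ * y⁻¹ ∈ Z}
        one_mem' := ⟨one_mem _, by simp⟩
        mul_mem' := fun {a b} ha hb => ⟨mul_mem ha.1 hb.1, by
          have e : a * b * y * (a * b)⁻¹ * y⁻¹
              = a * (b * y * b⁻¹ * y⁻¹) * a⁻¹ * (a * y * a⁻¹ * y⁻¹) := by group
          rw [e, ← hZc _ hb.2 _ ha.1, mul_inv_cancel_right]
          exact mul_mem hb.2 ha.2⟩
        inv_mem' := fun {a} ha => ⟨inv_mem ha.1, by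
          have e : a⁻¹ * y * a⁻¹⁻¹ * y⁻¹ = a⁻¹ * (a * y * a⁻¹ * y⁻¹)⁻¹ * a := by group
          rw [e, mul_assoc, hZc _ (inv_mem ha.2) _ ha.1, inv_mul_cancel_left]
          exact inv_mem ha.2⟩ } with hK
    have hsym : ∀ {x y : G}, x ∈ C → y ∈ C → x ∈ K y → y ∈ K x := fun {x y} _ hy h => ⟨hy, by
      have := inv_mem h.2
      rwa [mul_inv_rev, mul_inv_rev, mul_inv_rev, inv_inv, inv_inv, ← mul_assoc, ← mul_assoc]
        at this⟩
    have hEK : ∀ t ∈ T, E ≤ K t := fun t ht a ha => ⟨hAC (M.even_le i ha), by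
      have := hmoveZ t ht a ha
      rw [mul_assoc, mul_assoc, ← mul_assoc t, show t * a⁻¹ * t⁻¹ = t * a * t⁻¹ by
        rw [M.inv_eq (M.even_le i ha)]]
      exact this⟩
    have hgen : ∀ y, E ≤ K y → v ∈ K y → u ∈ K y → Q ≤ K y := fun y h1 h2 h3 =>
      sup_le (sup_le h1 (zpowers_le.2 h2)) (zpowers_le.2 h3)
    have huv : v ∈ K u := ⟨hTC hvT, by rw [hvi, hui, mul_assoc]; exact hc⟩
    have hv : Q ≤ K v := hgen v (hEK v hvT) ⟨hTC hvT, by simp⟩
      (hsym (hTC hvT) (hTC huT) huv)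
    have hu : Q ≤ K u := hgen u (hEK u huT) huv ⟨hTC huT, by simp⟩
    intro x hx y hy
    refine (hgen y (hEK y (hQT hy)) ?_ ?_ hx).2
    · exact hsym (hTC (hQT hy)) (hTC hvT) (hv hy)
    · exact hsym (hTC (hQT hy)) (hTC huT) (hu hy)
  have hsq : ∀ x ∈ Q, x * x ∈ Z := by
    intro x hx
    obtain ⟨a, ha, p, hp, q, hq, rfl⟩ := hform x hx
    have hstep : ∀ {a b : G}, a ∈ Q → b ∈ Q → a * a ∈ Z → b * b ∈ Z → a * b * (a * b) ∈ Z := by
      intro a b ha hb ha2 hb2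
      have hd := hgens b hb a ha
      have e : a * b * (a * b) = a * (b * a * b⁻¹ * a⁻¹) * a⁻¹ * (a * a) * (b * b) := by group
      rw [e, ← hZc _ hd _ (hTC (hQT ha)), mul_inv_cancel_right]
      exact mul_mem (mul_mem hd ha2) hb2
    have hp' : p ∈ Q ∧ p * p ∈ Z := by
      rcases hp with rfl | rfl
      exacts [⟨one_mem _, by simp⟩, ⟨hvQ, by rw [hv2]; exact one_mem _⟩]
    have hq' : q ∈ Q ∧ q * q ∈ Z := by
      rcases hq with rfl | rfl
      exacts [⟨one_mem _, by simp⟩, ⟨huQ, by rw [hu2]; exact one_mem _⟩]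
    exact hstep (mul_mem (hEQ ha) hp'.1) hq'.1
      (hstep (hEQ ha) hp'.1 (by rw [M.sq (M.even_le i ha)]; exact one_mem _) hp'.2) hq'.2
  refine ⟨{ Q := Q, M₁ := M₁, Q_le := hQM, le_cent := hM₁C,
            normal := fun c hc => hnorm c (mem_cent.2 hc), cover := ?_, odd := hodd, two := hQ2,
            le_N := fun x hx => hTN x (hQT hx), even_le_Q := hEQ, Q_inf := hQA, comm := hgens,
            sq := hsq, conj := ?_, cov := ?_ }⟩
  · intro c hc
    by_cases h : c ∈ M₁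
    · exact Or.inl h
    · right
      rw [hmul (mem_cent.2 hc) (hAC hzjA)]
      simp [h, hzjM]
  · intro x hx
    exact hTM _ (mul_mem (mul_mem (hTA hzjA) (hQT hx)) (inv_mem (hTA hzjA)))
      (hnorm _ (hAC hzjA) _ (hQM hx))
  · rintro _ ⟨S, hS, rfl⟩
    rcases evenOff_pairs i j hji S hS with h | ⟨k, hki, hkj, h⟩
    · refine ⟨1, one_mem _, ?_⟩
      rw [mul_one, mul_inv_cancel, mul_one, mul_one, M.inv_eq (M.ev_mem S)]
      rcases M.small_mem h with h' | h' <;> rw [h']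
      exacts [one_mem _, hzZ]
    · obtain ⟨s, hs, hs1, hsi, hsj⟩ := a5_invol_move i j k hji hki hkj.symm
      obtain ⟨x, hxT, hx2, hxf⟩ := hlift s hs hs1 hsi
      refine ⟨x, hTM x hxT (hinvM x hxT hx2 (hxf ▸ hs1)), ?_⟩
      have e : x * (M.z j * x * (M.z j)⁻¹) = M.ev {j, k} := by
        rw [M.inv_eq hzjA, M.ev_pair hkj.symm, ← mul_assoc, ← mul_assoc,
          show x * M.z j * x = x * M.z j * x⁻¹ by rw [inv_eq_of_mul_eq_one_left hx2],
          M.conj_z (hTN x hxT), hxf, hsj, M.comm (M.z_mem k) hzjA]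
      rw [e, M.inv_eq (M.ev_mem S), M.ev_mul]
      rcases M.small_mem h with h' | h' <;> rw [h']
      exacts [one_mem _, hzZ]

end Model

end Cfsg.Agent.EightType
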