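import Cfsg.Agent.EightType.Points

/-!
The three classes of involutions and their fusion.
-/

set_option autoImplicit false
set_option linter.unusedSectionVars false
set_option linter.style.haveILetI false
set_option maxHeartbeats 1000000

namespace Cfsg.Agent.EightType

open Subgroup

universe u

variable {G : Type u} [Group G] [Finite G] {A : Subgroup G}

/-- The centralizer of `a` is its odd core times elements of the normalizer of `A`. -/
def Decomp (A : Subgroup G) (a : G) : Prop :=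
  ∀ x : G, x * a = a * x → ∃ o ∈ theta a, ∃ n ∈ normalizer (A : Set G), x = o * n

namespace Model

variable (M : Model A)
include M

theorem conj_z {n : G} (hn : n ∈ normalizer (A : Set G)) (i : Fin 5) :
    n * M.z i * n⁻¹ = M.z ((M.f n).1 i) := by
  rw [M.act_eq hn (M.z_mem i), M.z_act]

theorem conj_pair {n : G} (hn : n ∈ normalizer (A : Set G)) (i j : Fin 5) :
    n * (M.z i * M.z j) * n⁻¹ = M.z ((M.f n).1 i) * M.z ((M.f n).1 j) := by
  rw [← conj_mul, M.conj_z hn, M.conj_z hn]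

theorem pair_mem (i j : Fin 5) : M.z i * M.z j ∈ A := mul_mem (M.z_mem i) (M.z_mem j)

theorem zt_not_bt {i j k : Fin 5} (hij : i ≠ j) : M.z k ≠ M.z i * M.z j := by
  rw [← M.ev_single k, ← M.ev_pair hij]
  intro h
  rcases M.ev_eq h.symm with e | e
  · exact (finset5_pair_single i j hij k).1 e
  · exact (finset5_pair_single i j hij k).2 e

theorem pair_eq {i j k l : Fin 5} (hij : i ≠ j) (hkl : k ≠ l)
    (h : M.z k * M.z l = M.z i * M.z j) : (k = i ∧ l = j) ∨ (k = j ∧ l = i) := by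
  rw [← M.ev_pair hkl, ← M.ev_pair hij] at h
  exact finset5_compl_pair i j hij k l hkl (M.ev_eq h.symm)

theorem pair_ne_one {i j : Fin 5} (hij : i ≠ j) : M.z i * M.z j ≠ 1 := fun h =>
  hij (M.z_inj ((eq_inv_of_mul_eq_one_left h).trans (M.inv_eq (M.z_mem j))))

/-- Complementary pairs. -/
theorem four_mul {i a b c d : Fin 5} (hab : a ≠ b) (hcd : c ≠ d)
    (h : ({a, b} : Finset (Fin 5)) ∪ {c, d} = Finset.univ.erase i)
    (hd : Disjoint ({a, b} : Finset (Fin 5)) {c, d}) :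
    M.z a * M.z b * (M.z c * M.z d) = M.z i := by
  rw [← M.ev_pair hab, ← M.ev_pair hcd, M.ev_mul, ← M.ev_single i, ← M.ev_compl {i}]
  rw [symmDiff_eq_sup_sdiff_inf, Finset.sup_eq_union, Finset.inf_eq_inter,
    Finset.disjoint_iff_inter_eq_empty.1 hd, Finset.sdiff_empty, h]
  congr 1
  ext x
  simp

theorem zt_mem {a : G} (h : M.ZT a) : a ∈ A ∧ a ≠ 1 := by
  obtain ⟨i, rfl⟩ := h
  exact ⟨M.z_mem i, M.z_ne i⟩

theorem bt_mem {a : G} (h : M.BT a) : a ∈ A ∧ a ≠ 1 := by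
  obtain ⟨i, j, hij, rfl⟩ := h
  exact ⟨M.pair_mem i j, M.pair_ne_one hij⟩

theorem not_zt_bt {a : G} (hz : M.ZT a) : ¬ M.BT a := by
  rintro ⟨i, j, hij, h⟩
  obtain ⟨k, rfl⟩ := hz
  exact M.zt_not_bt hij h

theorem invol_cases {x : G} (hn : x ∈ normalizer (A : Set G)) (hx : orderOf x = 2) :
    M.ZT x ∨ M.BT x ∨ M.f x ≠ 1 := by
  by_cases h : M.f x = 1
  · rcases M.types (M.invol_mem_A hn h (Invol.inv_mul_self hx)) (Invol.inv_ne_one hx) with h' | h'
    exacts [Or.inl h', Or.inr (Or.inl h')]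
  · exact Or.inr (Or.inr h)

theorem zt_conj_base {x : G} (h : M.ZT x) :
    ∃ n ∈ normalizer (A : Set G), n * M.z 0 * n⁻¹ = x := by
  obtain ⟨i, rfl⟩ := h
  obtain ⟨s, hs⟩ := a5_trans i
  exact ⟨M.lift s, M.lift_mem s, by rw [M.conj_z (M.lift_mem s), M.f_lift, hs]⟩

theorem bt_conj_base {x : G} (h : M.BT x) :
    ∃ n ∈ normalizer (A : Set G), n * (M.z 0 * M.z 1) * n⁻¹ = x := by
  obtain ⟨i, j, hij, rfl⟩ := h
  obtain ⟨s, hs, hs'⟩ := a5_trans_two i j hij
  exact ⟨M.lift s, M.lift_mem s, by rw [M.conj_pair (M.lift_mem s), M.f_lift, hs, hs']⟩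

theorem exists_out : ∃ v ∈ normalizer (A : Set G), orderOf v = 2 ∧ M.f v ≠ 1 := by
  by_contra hc
  push Not at hc
  refine M.cover (M.z 0) (M.z 0 * M.z 1) fun x hx => ?_
  obtain ⟨g, hg⟩ := M.exists_conj_invol (Invol.inv_mul_self hx)
  have hy : orderOf (g * x * g⁻¹) = 2 := (Invol.orderOf_conj g x).trans hx
  rcases M.invol_cases hg hy with h | h | h
  · obtain ⟨n, -, hn⟩ := M.zt_conj_base h
    exact Or.inl ((hn ▸ Invol.isConj_conj n _).trans (Invol.isConj_conj g x).symm)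
  · obtain ⟨n, -, hn⟩ := M.bt_conj_base h
    exact Or.inr ((hn ▸ Invol.isConj_conj n _).trans (Invol.isConj_conj g x).symm)
  · exact absurd (hc _ hg hy) h

/-- The three representatives are pairwise nonconjugate. -/
theorem reps_not_conj {v : G} (hv : v ∈ normalizer (A : Set G)) (hv2 : orderOf v = 2)
    (hvf : M.f v ≠ 1) : ¬ IsConj (M.z 0) (M.z 0 * M.z 1) ∧ ¬ IsConj (M.z 0) v ∧
      ¬ IsConj (M.z 0 * M.z 1) v := by
  have key : ∀ x : G, orderOf x = 2 →
      IsConj (M.z 0) x ∨ IsConj (M.z 0 * M.z 1) x ∨ IsConj v x := by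
    intro x hx
    obtain ⟨g, hg⟩ := M.exists_conj_invol (Invol.inv_mul_self hx)
    have hy : orderOf (g * x * g⁻¹) = 2 := (Invol.orderOf_conj g x).trans hx
    have hyx : IsConj (g * x * g⁻¹) x := (Invol.isConj_conj g x).symm
    rcases M.invol_cases hg hy with h | h | h
    · obtain ⟨n, -, hn⟩ := M.zt_conj_base h
      exact Or.inl ((hn ▸ Invol.isConj_conj n _).trans hyx)
    · obtain ⟨n, -, hn⟩ := M.bt_conj_base h
      exact Or.inr (Or.inl ((hn ▸ Invol.isConj_conj n _).trans hyx))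
    · obtain ⟨n, -, hn⟩ := M.out_conj hv hg (Invol.inv_mul_self hv2) (Invol.inv_mul_self hy) hvf h
      exact Or.inr (Or.inr ((hn ▸ Invol.isConj_conj n _).trans hyx))
  refine ⟨fun h => M.cover (M.z 0) v fun x hx => ?_, fun h => M.cover (M.z 0) (M.z 0 * M.z 1)
    fun x hx => ?_, fun h => M.cover (M.z 0) (M.z 0 * M.z 1) fun x hx => ?_⟩
  · rcases key x hx with h1 | h1 | h1
    exacts [Or.inl h1, Or.inl (h.trans h1), Or.inr h1]
  · rcases key x hx with h1 | h1 | h1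
    exacts [Or.inl h1, Or.inr h1, Or.inl (h.trans h1)]
  · rcases key x hx with h1 | h1 | h1
    exacts [Or.inl h1, Or.inr h1, Or.inr (h.trans h1)]

theorem zt_of_isConj {x y : G} (hx : M.ZT x) (hy : y ∈ normalizer (A : Set G)) (h : IsConj x y) :
    M.ZT y := by
  obtain ⟨v, hv, hv2, hvf⟩ := M.exists_out
  obtain ⟨h1, h2, -⟩ := M.reps_not_conj hv hv2 hvf
  obtain ⟨n, -, hn⟩ := M.zt_conj_base hx
  have hy2 : orderOf y = 2 := (Invol.orderOf_eq_of_isConj h).symm.trans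
    (M.orderOf_two (M.zt_mem hx).1 (M.zt_mem hx).2)
  have hc : IsConj (M.z 0) y := (hn ▸ Invol.isConj_conj n _).trans h
  rcases M.invol_cases hy hy2 with h' | h' | h'
  · exact h'
  · obtain ⟨m, -, hm⟩ := M.bt_conj_base h'
    exact absurd (hc.trans (hm ▸ Invol.isConj_conj m _).symm) h1
  · obtain ⟨m, -, hm⟩ := M.out_conj hv hy (Invol.inv_mul_self hv2) (Invol.inv_mul_self hy2) hvf h'
    exact absurd (hc.trans (hm ▸ Invol.isConj_conj m _).symm) h2

theorem bt_of_isConj {x y : G} (hx : M.BT x) (hy : y ∈ normalizer (A : Set G)) (h : IsConj x y) :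
    M.BT y := by
  obtain ⟨v, hv, hv2, hvf⟩ := M.exists_out
  obtain ⟨h1, -, h3⟩ := M.reps_not_conj hv hv2 hvf
  obtain ⟨n, -, hn⟩ := M.bt_conj_base hx
  have hy2 : orderOf y = 2 := (Invol.orderOf_eq_of_isConj h).symm.trans
    (M.orderOf_two (M.bt_mem hx).1 (M.bt_mem hx).2)
  have hc : IsConj (M.z 0 * M.z 1) y := (hn ▸ Invol.isConj_conj n _).trans h
  rcases M.invol_cases hy hy2 with h' | h' | h'
  · obtain ⟨m, -, hm⟩ := M.zt_conj_base h'
    exact absurd ((hm ▸ Invol.isConj_conj m _).trans hc.symm) h1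
  · exact h'
  · obtain ⟨m, -, hm⟩ := M.out_conj hv hy (Invol.inv_mul_self hv2) (Invol.inv_mul_self hy2) hvf h'
    exact absurd (hc.trans (hm ▸ Invol.isConj_conj m _).symm) h3

theorem mem_A_of_isConj {x y : G} (hx : x ∈ A) (hy : y ∈ normalizer (A : Set G))
    (h : IsConj x y) : y ∈ A := by
  rcases eq_or_ne x 1 with rfl | hx1
  · rw [isConj_one_right.1 h]; exact one_mem _
  rcases M.types hx hx1 with h' | h'
  · exact (M.zt_mem (M.zt_of_isConj h' hy h)).1
  · exact (M.bt_mem (M.bt_of_isConj h' hy h)).1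

theorem out_of_isConj {x y : G} (hx : x ∈ normalizer (A : Set G)) (hx2 : orderOf x = 2)
    (hxf : M.f x ≠ 1) (hy : y ∈ normalizer (A : Set G)) (h : IsConj x y) : M.f y ≠ 1 := fun hyf =>
  hxf (M.f_A (M.mem_A_of_isConj (M.invol_mem_A hy hyf
    (Invol.inv_mul_self ((Invol.orderOf_eq_of_isConj h).symm.trans hx2))) hx h.symm))

theorem conjN_of_isConj {x y : G} (hx : x ∈ normalizer (A : Set G)) (hx2 : orderOf x = 2)
    (hy : y ∈ normalizer (A : Set G)) (h : IsConj x y) :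
    ∃ n ∈ normalizer (A : Set G), n * x * n⁻¹ = y := by
  have hy2 : orderOf y = 2 := (Invol.orderOf_eq_of_isConj h).symm.trans hx2
  rcases M.invol_cases hx hx2 with h' | h' | h'
  · obtain ⟨n, hn, rfl⟩ := M.zt_conj_base h'
    obtain ⟨m, hm, hm'⟩ := M.zt_conj_base (M.zt_of_isConj h' hy h)
    exact ⟨m * n⁻¹, mul_mem hm (inv_mem hn), by rw [← hm']; group⟩
  · obtain ⟨n, hn, rfl⟩ := M.bt_conj_base h'
    obtain ⟨m, hm, hm'⟩ := M.bt_conj_base (M.bt_of_isConj h' hy h)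
    exact ⟨m * n⁻¹, mul_mem hm (inv_mem hn), by rw [← hm']; group⟩
  · exact M.out_conj hx hy (Invol.inv_mul_self hx2) (Invol.inv_mul_self hy2) h'
      (fun hyf => h' (M.f_A (M.mem_A_of_isConj
        (M.invol_mem_A hy hyf (Invol.inv_mul_self hy2)) hx h.symm)))

/-- A Sylow 2-subgroup of the centralizer of an involution of `N` inside `N`. -/
theorem cent_sylow {x : G} (hx : x ∈ normalizer (A : Set G)) (hx2 : orderOf x = 2) :
    ∃ T : Sylow 2 ↥(centralizer ({x} : Set G)),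
      (∀ t ∈ (T : Subgroup ↥(centralizer ({x} : Set G))), (t : G) ∈ normalizer (A : Set G)) ∧
      ∀ (a : G) (h : a ∈ centralizer ({x} : Set G)), a ∈ A → (⟨a, h⟩ : ↥(centralizer ({x} : Set G)))
        ∈ (T : Subgroup ↥(centralizer ({x} : Set G))) := by
  haveI : Fact (Nat.Prime 2) := ⟨Nat.prime_two⟩
  set C := centralizer ({x} : Set G) with hC
  have hxC : x ∈ C := mem_cent.2 rfl
  obtain ⟨T₀, hT₀⟩ := (show IsPGroup 2 (zpowers (⟨x, hxC⟩ : ↥C)) from
    IsPGroup.of_card (n := 1) (by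
      rw [Nat.card_zpowers, pow_one, ← Subgroup.orderOf_coe]; exact hx2)).exists_le_sylow
  obtain ⟨g, hg⟩ := M.exists_conj_mem ((T₀ : Subgroup ↥C).map C.subtype) (T₀.2.map C.subtype)
  have hy : g * x * g⁻¹ ∈ normalizer (A : Set G) :=
    hg x ⟨_, hT₀ (mem_zpowers _), rfl⟩
  obtain ⟨n, hn, hne⟩ := M.conjN_of_isConj hy ((Invol.orderOf_conj g x).trans hx2) hx
    (Invol.isConj_conj g x).symm
  have hm : n * g ∈ C := mem_cent.2 (mul_inv_eq_iff_eq_mul.1 (by
    rw [show n * g * x * (n * g)⁻¹ = n * (g * x * g⁻¹) * n⁻¹ by group, hne]))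
  refine ⟨(⟨n * g, hm⟩ : ↥C) • T₀, ?_⟩
  have hTN : ∀ t ∈ (((⟨n * g, hm⟩ : ↥C) • T₀ : Sylow 2 ↥C) : Subgroup ↥C),
      (t : G) ∈ normalizer (A : Set G) := by
    intro t ht
    rw [Sylow.coe_subgroup_smul] at ht
    obtain ⟨t₀, ht₀, rfl⟩ := ht
    show n * g * (t₀ : G) * (n * g)⁻¹ ∈ normalizer (A : Set G)
    rw [show n * g * (t₀ : G) * (n * g)⁻¹ = n * (g * t₀ * g⁻¹) * n⁻¹ by group]
    exact mul_mem (mul_mem hn (hg _ ⟨t₀, ht₀, rfl⟩)) (inv_mem hn)
  refine ⟨hTN, fun a ha haA => ?_⟩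
  set T := (⟨n * g, hm⟩ : ↥C) • T₀ with hT
  have hnorm : (T : Subgroup ↥C) ≤ normalizer ((A.subgroupOf C : Subgroup ↥C) : Set ↥C) :=
    le_normalizer_iff.2 fun t ht b hb => mem_subgroupOf.2 (Base.conj_mem (hTN t ht) (mem_subgroupOf.1 hb))
  have hAC : IsPGroup 2 (A.subgroupOf C) :=
    (IsPGroup.of_card (n := 4) M.card).comap_of_injective _ C.subtype_injective
  have := T.is_maximal' (T.2.to_sup_of_normal_right' hAC hnorm) le_sup_left
  rw [← this]
  exact mem_sup_right (mem_subgroupOf.2 haA)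

end Model

end Cfsg.Agent.EightType
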