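import Cfsg.Agent.Cores.Basic
import Cfsg.Agent.Invol.Basic
import Cfsg.Prelude.Def_CaseTheorems

/-!
Odd cores of subgroups, as subgroups of the ambient group, and small lemmas about elements of odd
and of 2-power order.
-/

set_option autoImplicit false
set_option linter.unusedSectionVars false
set_option linter.style.haveILetI false

namespace Cfsg.Agent.EightType

open Subgroup

universe u

variable {G : Type u} [Group G]

theorem mem_cent {g a : G} : g ∈ centralizer ({a} : Set G) ↔ g * a = a * g :=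
  mem_centralizer_singleton_iff

/-- The odd core of a subgroup, in the ambient group. -/
def core (H : Subgroup G) : Subgroup G := (Cfsg.oddCore ↥H).map H.subtype

/-- The odd core of a centralizer. -/
abbrev theta (x : G) : Subgroup G := core (centralizer ({x} : Set G))

theorem core_le (H : Subgroup G) : core H ≤ H := map_subtype_le _

theorem core_conj {H : Subgroup G} {h x : G} (hh : h ∈ H) (hx : x ∈ core H) :
    h * x * h⁻¹ ∈ core H := by
  obtain ⟨y, hy, rfl⟩ := hx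
  exact ⟨⟨h, hh⟩ * y * (⟨h, hh⟩ : H)⁻¹,
    (Cores.pPrimeCore_normal_inst (p := 2) ↥H).conj_mem y hy ⟨h, hh⟩, rfl⟩

variable [Finite G]

theorem core_odd (H : Subgroup G) : Odd (Nat.card (core H)) := by
  unfold core
  rw [card_map_of_injective H.subtype_injective]
  exact Nat.coprime_two_right.1 (Cores.pPrimeCore_coprime (p := 2))

theorem le_core {H D : Subgroup G} (hD : D ≤ H) (hodd : Odd (Nat.card D))
    (hn : ∀ h ∈ H, ∀ d ∈ D, h * d * h⁻¹ ∈ D) : D ≤ core H := by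
  rw [← map_subgroupOf_eq_of_le hD]
  refine map_mono (Cores.le_pPrimeCore ⟨fun d hd h => hn h h.2 d hd⟩ ?_)
  rw [Nat.card_congr (subgroupOfEquivOfLe hD).toEquiv]
  exact Nat.coprime_two_right.2 hodd

theorem le_oddCore {D : Subgroup G} (hodd : Odd (Nat.card D))
    (hn : ∀ g : G, ∀ d ∈ D, g * d * g⁻¹ ∈ D) : D ≤ Cfsg.oddCore G :=
  Cores.le_pPrimeCore ⟨fun d hd g => hn g d hd⟩ (Nat.coprime_two_right.2 hodd)

/-- A subgroup of odd order normalised by a supplement of the odd core lies in the odd core. -/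
theorem absorb {H R D : Subgroup G} (hR : R ≤ H)
    (hH : ∀ h ∈ H, ∃ k ∈ core H, ∃ r ∈ R, h = k * r) (hD : D ≤ H) (hodd : Odd (Nat.card D))
    (hn : ∀ r ∈ R, ∀ d ∈ D, r * d * r⁻¹ ∈ D) : D ≤ core H := by
  set O := Cfsg.oddCore ↥H with hO
  haveI : O.Normal := Cores.pPrimeCore_normal_inst (p := 2) ↥H
  set X : Subgroup ↥H := D.subgroupOf H ⊔ O with hX
  have hnorm : X.Normal := by
    refine ⟨fun x hx h => ?_⟩
    suffices hle : X ≤ X.comap (MulAut.conj h).toMonoidHom from hle hx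
    refine sup_le (fun d hd => ?_) (fun d hd => mem_sup_right (‹O.Normal›.conj_mem d hd h))
    obtain ⟨k, hk, r, hr, hkr⟩ := hH h h.2
    obtain ⟨k', hk', rfl⟩ := hk
    have hr' : (⟨r, hR hr⟩ : ↥H) * d * (⟨r, hR hr⟩ : ↥H)⁻¹ ∈ X := mem_sup_left (hn r hr d hd)
    have e : h = k' * ⟨r, hR hr⟩ := Subtype.ext hkr
    show h * d * h⁻¹ ∈ X
    rw [e, show k' * ⟨r, hR hr⟩ * d * (k' * ⟨r, hR hr⟩)⁻¹
      = k' * ((⟨r, hR hr⟩ : ↥H) * d * (⟨r, hR hr⟩ : ↥H)⁻¹) * k'⁻¹ by group]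
    exact mul_mem (mul_mem (mem_sup_right hk') hr') (mem_sup_right (inv_mem hk'))
  have hXodd : (Nat.card X).Coprime 2 := by
    refine Nat.Coprime.coprime_dvd_left (Cores.card_sup_dvd_mul _ O) ?_
    rw [Nat.card_congr (subgroupOfEquivOfLe hD).toEquiv]
    exact (Nat.coprime_two_right.2 hodd).mul_left (Cores.pPrimeCore_coprime (p := 2))
  intro d hd
  exact ⟨⟨d, hD hd⟩, Cores.le_pPrimeCore hnorm hXodd (mem_sup_left hd), rfl⟩

theorem orderOf_odd_of_mem {D : Subgroup G} (hD : Odd (Nat.card D)) {x : G} (hx : x ∈ D) :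
    Odd (orderOf x) :=
  hD.of_dvd_nat (Subgroup.orderOf_dvd_natCard D hx)

theorem mem_of_sq {K : Subgroup G} {x : G} (hx : Odd (orderOf x)) (h : x * x ∈ K) : x ∈ K := by
  obtain ⟨m, hm⟩ := hx
  have e : x = (x * x) ^ (m + 1) := by
    rw [← pow_two, ← pow_mul, show 2 * (m + 1) = orderOf x + 1 by omega, pow_succ, pow_orderOf_eq_one,
      one_mul]
  rw [e]
  exact pow_mem h _

theorem eq_one_of_odd {x : G} (hx : Odd (orderOf x)) {k : ℕ} (h : x ^ 2 ^ k = 1) : x = 1 := by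
  rw [← orderOf_eq_one_iff]
  exact Nat.eq_one_of_dvd_coprimes ((Nat.coprime_two_left.2 hx).pow_left k)
    (orderOf_dvd_of_pow_eq_one h) dvd_rfl

theorem commute_of_sq_commute {g x : G} (hg : Odd (orderOf g)) (h : g * g * x = x * (g * g)) :
    g * x = x * g :=
  mem_cent.1 (mem_of_sq (K := centralizer ({x} : Set G)) hg (mem_cent.2 h))

theorem not_two_dvd_of_odd {n : ℕ} (h : Odd n) : ¬ 2 ∣ n :=
  Nat.two_dvd_ne_zero.2 (Nat.odd_iff.1 h)

/-- A Sylow 2-subgroup `A` of `K ⊔ A`, with `K` of odd order normalised by `H`: elements of `H`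
conjugating `A` into `K ⊔ A` factor through the normalizer of `A`. -/
theorem frattini {K A : Subgroup G} (hK : Odd (Nat.card K)) (hA : IsPGroup 2 A)
    (hAK : ∀ a ∈ A, ∀ k ∈ K, a * k * a⁻¹ ∈ K) {g : G} (hg : ∀ a ∈ A, g * a * g⁻¹ ∈ K ⊔ A) :
    ∃ k ∈ K, k⁻¹ * g ∈ normalizer (A : Set G) := by
  haveI : Fact (Nat.Prime 2) := ⟨Nat.prime_two⟩
  set L := K ⊔ A with hL
  set φ := (MulAut.conj g).toMonoidHom with hφ
  have hKn : (K.subgroupOf L).Normal := (normal_subgroupOf_iff_le_normalizer le_sup_left).2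
    (sup_le le_normalizer (le_normalizer_iff.2 hAK))
  have hsup : A.subgroupOf L ⊔ K.subgroupOf L = ⊤ := by
    rw [← subgroupOf_sup le_sup_right le_sup_left, sup_comm, subgroupOf_self]
  have hidx : ¬ 2 ∣ (A.subgroupOf L).index := by
    intro h2
    have h1 := Cores.card_sup_dvd_mul (A.subgroupOf L) (K.subgroupOf L)
    rw [hsup, card_top, ← (A.subgroupOf L).card_mul_index,
      Nat.card_congr (subgroupOfEquivOfLe (le_sup_left : K ≤ L)).toEquiv] at h1
    exact not_two_dvd_of_odd hK (h2.trans (Nat.dvd_of_mul_dvd_mul_left Nat.card_pos h1))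
  have hB : A.map φ ≤ L := by
    rintro _ ⟨a, ha, rfl⟩; exact hg a ha
  have hA' : IsPGroup 2 (A.subgroupOf L) :=
    hA.of_equiv (subgroupOfEquivOfLe le_sup_right).symm
  have hB' : IsPGroup 2 ((A.map φ).subgroupOf L) :=
    (hA.map φ).of_equiv (subgroupOfEquivOfLe hB).symm
  have hcard : Nat.card ((A.map φ).subgroupOf L) = Nat.card (A.subgroupOf L) := by
    rw [Nat.card_congr (subgroupOfEquivOfLe hB).toEquiv,
      Nat.card_congr (subgroupOfEquivOfLe (le_sup_right : A ≤ L)).toEquiv,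
      card_map_of_injective (f := φ) (MulAut.conj g).injective]
  have hidx' : ((A.map φ).subgroupOf L).index = (A.subgroupOf L).index := by
    have h1 := ((A.map φ).subgroupOf L).card_mul_index
    have h2 := (A.subgroupOf L).card_mul_index
    rw [hcard] at h1
    exact Nat.eq_of_mul_eq_mul_left Nat.card_pos (h1.trans h2.symm)
  obtain ⟨l, hl⟩ := MulAction.exists_smul_eq ↥L (hA'.toSylow hidx) (hB'.toSylow (hidx' ▸ hidx))
  have hl' : ∀ a ∈ A, (l : G) * a * (l : G)⁻¹ ∈ A.map φ := by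
    intro a ha
    have hm : (⟨a, mem_sup_right ha⟩ : ↥L) ∈ (hA'.toSylow hidx : Subgroup ↥L) := ha
    have := congrArg (fun Q : Sylow 2 ↥L => (Q : Subgroup ↥L)) hl
    simp only [Sylow.coe_subgroup_smul] at this
    have hm' := Subgroup.smul_mem_pointwise_smul _ (MulAut.conj l) _ hm
    rw [this] at hm'
    exact hm'
  obtain ⟨k, hk, a₀, ha₀, hka⟩ : ∃ k ∈ K, ∃ a ∈ A, k * a = (l : G) := by
    have h : (l : G) ∈ ((K ⊔ A : Subgroup G) : Set G) := l.2
    rw [coe_mul_of_right_le_normalizer_left K A (le_normalizer_iff.2 hAK)] at h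
    exact h
  refine ⟨k, hk, ?_⟩
  rw [← inv_mem_iff, mul_inv_rev, inv_inv, mem_normalizer_iff_map_conj_eq]
  refine eq_of_le_of_card_ge ?_ (card_map_of_injective
    (f := ((MulAut.conj (g⁻¹ * k) : MulAut G) : G →* G)) (MulAut.conj _).injective).ge
  rintro _ ⟨a, ha, rfl⟩
  obtain ⟨a', ha', e⟩ := hl' (a₀⁻¹ * a * a₀) (mul_mem (mul_mem (inv_mem ha₀) ha) ha₀)
  have e' : g * a' * g⁻¹ = (l : G) * (a₀⁻¹ * a * a₀) * (l : G)⁻¹ := e
  rw [← hka] at e'
  show g⁻¹ * k * a * (g⁻¹ * k)⁻¹ ∈ A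
  rw [show g⁻¹ * k * a * (g⁻¹ * k)⁻¹ = g⁻¹ * (k * a₀ * (a₀⁻¹ * a * a₀) * (k * a₀)⁻¹) * g by group,
    ← e', show g⁻¹ * (g * a' * g⁻¹) * g = a' by group]
  exact ha'

omit [Finite G] in
theorem theta_commute {a x : G} (hx : x ∈ theta a) : x * a = a * x :=
  mem_cent.1 (core_le _ hx)

omit [Finite G] in
theorem theta_conj_mem {a g x : G} (hg : g * a = a * g) (hx : x ∈ theta a) :
    g * x * g⁻¹ ∈ theta a := core_conj (mem_cent.2 hg) hx

theorem theta_map_conj {a : G} (g : G) {x : G} (hx : x ∈ theta a) :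
    g * x * g⁻¹ ∈ theta (g * a * g⁻¹) := by
  refine le_core (H := centralizer ({g * a * g⁻¹} : Set G))
    (D := (theta a).map (MulAut.conj g).toMonoidHom) ?_ ?_ ?_ ⟨x, hx, rfl⟩
  · rintro _ ⟨y, hy, rfl⟩
    refine mem_cent.2 ?_
    show g * y * g⁻¹ * (g * a * g⁻¹) = g * a * g⁻¹ * (g * y * g⁻¹)
    rw [conj_mul, theta_commute hy, ← conj_mul]
  · rw [card_map_of_injective (f := (MulAut.conj g).toMonoidHom) (MulAut.conj g).injective]
    exact core_odd _
  · rintro h hh _ ⟨y, hy, rfl⟩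
    have e : g⁻¹ * h * g * a = a * (g⁻¹ * h * g) := by
      have := congrArg (fun t => g⁻¹ * t * g) (mem_cent.1 hh)
      simpa [mul_assoc] using this
    refine ⟨_, theta_conj_mem e hy, ?_⟩
    show g * (g⁻¹ * h * g * y * (g⁻¹ * h * g)⁻¹) * g⁻¹ = h * (g * y * g⁻¹) * h⁻¹
    group

end Cfsg.Agent.EightType
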