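import Cfsg.Agent.EightType.Gen
import Cfsg.Agent.EightType.A5
import Cfsg.Prelude.Def_Transfer
import Mathlib.GroupTheory.Perm.Cycle.Type
import Mathlib.GroupTheory.SpecificGroups.Alternating.Simple

/-!
An elementary abelian subgroup `A` of order sixteen whose normalizer induces the alternating group
of degree five, in a group with three classes of involutions and Sylow 2-subgroup in that
normalizer: `A` is the even part of the five-point permutation module.
-/

set_option autoImplicit false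
set_option linter.unusedSectionVars false
set_option linter.style.haveILetI false

namespace Cfsg.Agent.EightType

open Subgroup

universe u

variable {G : Type u} [Group G] [Finite G] {A : Subgroup G}

/-- The hypotheses on `A`. -/
structure Base (A : Subgroup G) where
  elem : Cfsg.IsElementaryAbelian 2 A
  card : Nat.card A = 16
  φ : ↥(normalizer (A : Set G)) →* A5
  surj : Function.Surjective φ
  ker : φ.ker = A.subgroupOf (normalizer (A : Set G)) ⊔ Cfsg.oddCore ↥(normalizer (A : Set G))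
  noncentral : ∃ n ∈ normalizer (A : Set G), ∃ a ∈ A, n * a ≠ a * n
  sylow : ∃ S : Sylow 2 G, (S : Subgroup G) ≤ normalizer (A : Set G)
  three : Nat.card {c : ConjClasses G // ∃ x ∈ c.carrier, orderOf x = 2} = 3

theorem exists_conj_of_inverted {x o : G} (hx : x * x = 1) (ho : Odd (orderOf o))
    (h : o * x * (o * x) = 1) : ∃ r ∈ zpowers o, r * x * r⁻¹ = o * x := by
  obtain ⟨m, hm⟩ := ho
  have hxo : x * o * x⁻¹ = o⁻¹ := by
    rw [inv_eq_of_mul_eq_one_right hx]
    refine eq_inv_of_mul_eq_one_right ?_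
    simpa [mul_assoc] using h
  refine ⟨o ^ (m + 1), pow_mem (mem_zpowers o) _, ?_⟩
  have hi : x * (o ^ (m + 1))⁻¹ = o ^ (m + 1) * x := by
    have e1 : x * (o ^ (m + 1))⁻¹ * x⁻¹ = o ^ (m + 1) := by
      rw [← inv_pow, ← conj_pow, ← conj_inv, hxo, inv_inv]
    exact mul_inv_eq_iff_eq_mul.1 e1
  rw [mul_assoc, hi, ← mul_assoc, ← pow_add, show m + 1 + (m + 1) = orderOf o + 1 by omega,
    pow_succ, pow_orderOf_eq_one, one_mul]

namespace Base

variable (B : Base A)
include B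

theorem sq {a : G} (ha : a ∈ A) : a * a = 1 := by rw [← pow_two]; exact B.elem.2 a ha

theorem inv_eq {a : G} (ha : a ∈ A) : a⁻¹ = a := inv_eq_of_mul_eq_one_left (B.sq ha)

theorem comm {a b : G} (ha : a ∈ A) (hb : b ∈ A) : a * b = b * a :=
  congrArg Subtype.val (B.elem.1.is_comm.comm ⟨a, ha⟩ ⟨b, hb⟩)

theorem orderOf_two {a : G} (ha : a ∈ A) (ha1 : a ≠ 1) : orderOf a = 2 :=
  Invol.orderOf_eq_two (B.sq ha) ha1

omit B in
theorem le_nz : A ≤ normalizer (A : Set G) := Subgroup.le_normalizer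

omit B in
theorem conj_mem {n a : G} (hn : n ∈ normalizer (A : Set G)) (ha : a ∈ A) : n * a * n⁻¹ ∈ A :=
  (mem_normalizer_iff.1 hn a).1 ha

open Classical in
/-- The induced permutation. -/
noncomputable def f (g : G) : A5 :=
  if h : g ∈ normalizer (A : Set G) then B.φ ⟨g, h⟩ else 1

theorem f_of {g : G} (h : g ∈ normalizer (A : Set G)) : B.f g = B.φ ⟨g, h⟩ := dif_pos h

theorem f_one : B.f 1 = 1 := by rw [B.f_of (one_mem _)]; exact map_one B.φ

theorem f_mul {g h : G} (hg : g ∈ normalizer (A : Set G)) (hh : h ∈ normalizer (A : Set G)) :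
    B.f (g * h) = B.f g * B.f h := by
  rw [B.f_of hg, B.f_of hh, B.f_of (mul_mem hg hh), ← map_mul]; rfl

theorem f_inv {g : G} (hg : g ∈ normalizer (A : Set G)) : B.f g⁻¹ = (B.f g)⁻¹ := by
  rw [B.f_of hg, B.f_of (inv_mem hg), ← map_inv]; rfl

theorem f_conj {g h : G} (hg : g ∈ normalizer (A : Set G)) (hh : h ∈ normalizer (A : Set G)) :
    B.f (g * h * g⁻¹) = B.f g * B.f h * (B.f g)⁻¹ := by
  rw [B.f_mul (mul_mem hg hh) (inv_mem hg), B.f_mul hg hh, B.f_inv hg]

theorem f_pow {g : G} (hg : g ∈ normalizer (A : Set G)) (k : ℕ) : B.f (g ^ k) = B.f g ^ k := by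
  induction k with
  | zero => simp [B.f_one]
  | succ k ih => rw [pow_succ, pow_succ, B.f_mul (pow_mem hg k) hg, ih]

theorem f_A {a : G} (ha : a ∈ A) : B.f a = 1 := by
  rw [B.f_of (le_nz ha), ← MonoidHom.mem_ker, B.ker]
  exact mem_sup_left (mem_subgroupOf.2 ha)

theorem f_core {o : G} (ho : o ∈ core (normalizer (A : Set G))) : B.f o = 1 := by
  rw [B.f_of (core_le _ ho), ← MonoidHom.mem_ker, B.ker]
  obtain ⟨o', ho', rfl⟩ := ho
  exact mem_sup_right ho'

theorem core_comm {o a : G} (ho : o ∈ core (normalizer (A : Set G))) (ha : a ∈ A) :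
    o * a = a * o := by
  have h1 : o * a * o⁻¹ * a⁻¹ ∈ A := mul_mem (conj_mem (core_le _ ho) ha) (inv_mem ha)
  have h2 : o * a * o⁻¹ * a⁻¹ ∈ core (normalizer (A : Set G)) := by
    rw [show o * a * o⁻¹ * a⁻¹ = o * (a * o⁻¹ * a⁻¹) by group]
    exact mul_mem ho (core_conj (le_nz ha) (inv_mem ho))
  have h3 := eq_one_of_odd (orderOf_odd_of_mem (core_odd _) h2) (k := 1)
    (by rw [pow_one, pow_two]; exact B.sq h1)
  exact mul_inv_eq_iff_eq_mul.1 (mul_inv_eq_one.1 h3)

theorem ker_decomp {n : G} (hn : n ∈ normalizer (A : Set G)) (h : B.f n = 1) :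
    ∃ a ∈ A, ∃ o ∈ core (normalizer (A : Set G)), n = a * o := by
  rw [B.f_of hn, ← MonoidHom.mem_ker, B.ker] at h
  haveI : (Cfsg.oddCore ↥(normalizer (A : Set G))).Normal :=
    Cores.pPrimeCore_normal_inst (p := 2) _
  obtain ⟨a, ha, o, ho, e⟩ := mem_sup_of_normal_right.1 h
  exact ⟨a, ha, o, ⟨o, ho, rfl⟩, congrArg Subtype.val e.symm⟩

theorem f_eq_one_comm {n a : G} (hn : n ∈ normalizer (A : Set G)) (h : B.f n = 1) (ha : a ∈ A) :
    n * a = a * n := by
  obtain ⟨b, hb, o, ho, rfl⟩ := B.ker_decomp hn h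
  calc b * o * a = b * (a * o) := by rw [mul_assoc, B.core_comm ho ha]
    _ = a * (b * o) := by rw [← mul_assoc, B.comm hb ha, mul_assoc]

/-- A chosen preimage. -/
noncomputable def lift (s : A5) : G := ((B.surj s).choose : G)

theorem lift_mem (s : A5) : B.lift s ∈ normalizer (A : Set G) := (B.surj s).choose.2

theorem f_lift (s : A5) : B.f (B.lift s) = s := by
  rw [B.f_of (B.lift_mem s)]
  exact (B.surj s).choose_spec

/-- The action of the quotient on `A`. -/
noncomputable def act (s : A5) (a : G) : G := B.lift s * a * (B.lift s)⁻¹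

theorem act_eq {n a : G} (hn : n ∈ normalizer (A : Set G)) (ha : a ∈ A) :
    n * a * n⁻¹ = B.act (B.f n) a := by
  unfold act
  set m := B.lift (B.f n)
  have hm : m ∈ normalizer (A : Set G) := B.lift_mem _
  have h1 : B.f (m⁻¹ * n) = 1 := by
    rw [B.f_mul (inv_mem hm) hn, B.f_inv hm, B.f_lift, inv_mul_cancel]
  have h2 := B.f_eq_one_comm (mul_mem (inv_mem hm) hn) h1 ha
  calc n * a * n⁻¹ = m * (m⁻¹ * n * a) * n⁻¹ := by group
    _ = m * (a * (m⁻¹ * n)) * n⁻¹ := by rw [h2]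
    _ = m * a * m⁻¹ := by group

theorem act_mem (s : A5) {a : G} (ha : a ∈ A) : B.act s a ∈ A := conj_mem (B.lift_mem s) ha

theorem act_one {a : G} (ha : a ∈ A) : B.act 1 a = a := by
  rw [← B.f_one, ← B.act_eq (one_mem _) ha]; group

theorem act_mul (s t : A5) {a : G} (ha : a ∈ A) : B.act (s * t) a = B.act s (B.act t a) := by
  have e : B.f (B.lift s * B.lift t) = s * t := by
    rw [B.f_mul (B.lift_mem s) (B.lift_mem t), B.f_lift, B.f_lift]
  rw [← e, ← B.act_eq (mul_mem (B.lift_mem s) (B.lift_mem t)) ha]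
  unfold act
  group

theorem act_map_mul (s : A5) (a b : G) : B.act s (a * b) = B.act s a * B.act s b :=
  (conj_mul).symm

theorem act_map_one (s : A5) : B.act s 1 = 1 := by unfold act; group

theorem act_ne_one (s : A5) {a : G} (ha1 : a ≠ 1) : B.act s a ≠ 1 := fun h => ha1 (by
  unfold act at h
  have := congrArg (fun y => (B.lift s)⁻¹ * y * B.lift s) h
  simpa [mul_assoc] using this)

theorem act_symm (s : A5) {a : G} (ha : a ∈ A) : B.act s⁻¹ (B.act s a) = a := by
  rw [← B.act_mul _ _ ha, inv_mul_cancel, B.act_one ha]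

/-- The action as a homomorphism to permutations of `A`. -/
noncomputable def actP : A5 →* Equiv.Perm A where
  toFun s :=
    { toFun := fun a => ⟨B.act s a, B.act_mem s a.2⟩
      invFun := fun a => ⟨B.act s⁻¹ a, B.act_mem _ a.2⟩
      left_inv := fun a => Subtype.ext (B.act_symm s a.2)
      right_inv := fun a => Subtype.ext (by
        simpa using B.act_symm s⁻¹ a.2) }
  map_one' := Equiv.ext fun a => Subtype.ext (B.act_one a.2)
  map_mul' s t := Equiv.ext fun a => Subtype.ext (B.act_mul s t a.2)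

/-- The fixed points of a permutation in `A`. -/
noncomputable def fixed (s : A5) : Subgroup G where
  carrier := {a | a ∈ A ∧ B.act s a = a}
  one_mem' := ⟨one_mem _, B.act_map_one s⟩
  mul_mem' := fun {a b} ha hb => ⟨mul_mem ha.1 hb.1, by rw [B.act_map_mul, ha.2, hb.2]⟩
  inv_mem' := fun {a} ha => by rw [B.inv_eq ha.1]; exact ha

theorem mem_fixed {s : A5} {a : G} : a ∈ B.fixed s ↔ a ∈ A ∧ B.act s a = a := Iff.rfl

/-- Only the identity acts trivially. -/
theorem eq_one_of_central {s : A5} (h : ∀ a ∈ A, B.act s a = a) : s = 1 := by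
  let C : Subgroup A5 := B.actP.ker
  have hs : s ∈ C := Equiv.ext fun a => Subtype.ext (h a a.2)
  rcases (inferInstance : C.Normal).eq_bot_or_eq_top with hC | hC
  · rwa [hC, mem_bot] at hs
  · obtain ⟨n, hn, a, ha, hne⟩ := B.noncentral
    have h1 : B.f n ∈ C := hC ▸ mem_top _
    have h2 : B.act (B.f n) a = a :=
      congrArg Subtype.val (Equiv.ext_iff.1 (MonoidHom.mem_ker.1 h1) ⟨a, ha⟩)
    rw [← B.act_eq hn ha] at h2
    exact absurd (mul_inv_eq_iff_eq_mul.1 h2) hne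

theorem fix5 {s : A5} (hs5 : s ^ 5 = 1) (hs1 : s ≠ 1) {a : G} (ha : a ∈ A) (h : B.act s a = a) :
    a = 1 := by
  classical
  haveI : Fact (Nat.Prime 5) := ⟨by norm_num⟩
  letI := Fintype.ofFinite A
  set σ := B.actP s with hσdef
  have hσ : σ ^ 5 ^ 1 = 1 := by rw [pow_one, ← map_pow, hs5, map_one]
  have h1 := Equiv.Perm.card_compl_support_modEq hσ
  have e : σ.supportᶜ.card = Nat.card (B.fixed s) := by
    rw [← Nat.card_eq_finsetCard]
    refine Nat.card_congr
      { toFun := fun x => ⟨(x.1 : G), x.1.2, congrArg Subtype.val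
          (Equiv.Perm.notMem_support.1 (Finset.mem_compl.1 x.2) : σ x.1 = x.1)⟩
        invFun := fun y => ⟨⟨y.1, y.2.1⟩, Finset.mem_compl.2
          (Equiv.Perm.notMem_support.2 (Subtype.ext y.2.2))⟩
        left_inv := fun x => rfl
        right_inv := fun y => rfl }
  rw [e, ← Nat.card_eq_fintype_card, B.card] at h1
  have hle : B.fixed s ≤ A := fun x hx => hx.1
  have hdvd : Nat.card (B.fixed s) ∣ 2 ^ 4 := by
    have := card_dvd_of_le hle
    rwa [B.card] at this
  obtain ⟨k, hk, hkc⟩ := (Nat.dvd_prime_pow Nat.prime_two).1 hdvd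
  rw [hkc] at h1
  rcases (show k = 0 ∨ k = 4 by
    interval_cases k <;> simp_all [Nat.ModEq]) with rfl | rfl
  · by_contra ha1
    have h2 := Nat.card_pos (α := B.fixed s)
    have : B.fixed s = ⊥ := eq_bot_of_card_eq _ (by simpa using hkc)
    exact ha1 ((Subgroup.eq_bot_iff_forall _).1 this a ⟨ha, h⟩)
  · refine absurd (B.eq_one_of_central fun x hx => ?_) hs1
    have : B.fixed s = A := eq_of_le_of_card_ge hle (by rw [hkc, B.card]; norm_num)
    exact ((this.symm ▸ hx : x ∈ B.fixed s)).2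

theorem card_fixed_le {s : A5} (hs : s * s = 1) (hs1 : s ≠ 1) : Nat.card (B.fixed s) ≤ 4 := by
  obtain ⟨t, ht1, ht5⟩ := a5_five_of_invol s hs hs1
  by_contra hc
  have hc5 : 5 ≤ Nat.card (B.fixed s) := by omega
  let F : ↥(B.fixed s) × ↥(B.fixed s) → ↥A := fun p =>
    ⟨(p.1 : G) * B.act t p.2, mul_mem p.1.2.1 (B.act_mem t p.2.2.1)⟩
  have hinj : Function.Injective F := by
    rintro ⟨⟨x, hx⟩, ⟨y, hy⟩⟩ ⟨⟨x', hx'⟩, ⟨y', hy'⟩⟩ h
    have h' : x * B.act t y = x' * B.act t y' := congrArg Subtype.val h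
    have hw : x'⁻¹ * x = B.act t (y' * y⁻¹) := by
      rw [B.act_map_mul, B.inv_eq hy.1]
      calc x'⁻¹ * x = x'⁻¹ * (x * B.act t y) * (B.act t y)⁻¹ := by group
        _ = B.act t y' * (B.act t y)⁻¹ := by rw [h']; group
        _ = B.act t y' * B.act t y := by rw [B.inv_eq (B.act_mem t hy.1)]
    have hxx : x'⁻¹ * x ∈ B.fixed s := mul_mem (inv_mem hx') hx
    have hyy : y' * y⁻¹ ∈ B.fixed s := mul_mem hy' (inv_mem hy)
    have h1 : x'⁻¹ * x = 1 := by
      refine B.fix5 ht5 ht1 hxx.1 ?_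
      have h2 : B.act (t * s * t⁻¹) (x'⁻¹ * x) = x'⁻¹ * x := by
        rw [B.act_mul _ _ hxx.1, B.act_mul _ _ (B.act_mem _ hxx.1), hw, B.act_symm t hyy.1, hyy.2]
      rw [B.act_mul _ _ hxx.1, h2, hxx.2]
    have hxe : x' = x := inv_mul_eq_one.1 h1
    subst hxe
    have hye : y = y' := by
      have := congrArg (B.act t⁻¹) (mul_left_cancel h')
      rwa [B.act_symm t hy.1, B.act_symm t hy'.1] at this
    subst hye
    rfl
  have hle := Nat.card_le_card_of_injective F hinj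
  rw [Nat.card_prod, B.card] at hle
  nlinarith

/-- For an involution of the quotient, the fixed points are the commutators. -/
theorem fixed_invol {s : A5} (hs : s * s = 1) (hs1 : s ≠ 1) :
    Nat.card (B.fixed s) = 4 ∧ ∀ c ∈ B.fixed s, ∃ a ∈ A, a * B.act s a = c := by
  let d : ↥A →* ↥A := MonoidHom.mk' (fun a => ⟨(a : G) * B.act s a, mul_mem a.2 (B.act_mem s a.2)⟩)
    fun a b => Subtype.ext (by
      show (a : G) * b * B.act s (a * b) = (a : G) * B.act s a * ((b : G) * B.act s b)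
      rw [B.act_map_mul, mul_assoc, ← mul_assoc (b : G), B.comm b.2 (B.act_mem s a.2)]
      group)
  let R : Subgroup G := d.range.map A.subtype
  have hle : R ≤ B.fixed s := by
    rintro _ ⟨_, ⟨a, rfl⟩, rfl⟩
    refine ⟨(d a).2, ?_⟩
    show B.act s ((a : G) * B.act s a) = (a : G) * B.act s a
    rw [B.act_map_mul, ← B.act_mul _ _ a.2, hs, B.act_one a.2, B.comm (B.act_mem s a.2) a.2]
  let K : Subgroup G := d.ker.map A.subtype
  have hK : K ≤ B.fixed s := by
    rintro _ ⟨a, ha, rfl⟩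
    have h1 : (a : G) * B.act s a = 1 := congrArg Subtype.val (MonoidHom.mem_ker.1 ha)
    refine ⟨a.2, ?_⟩
    show B.act s (a : G) = a
    rw [eq_inv_of_mul_eq_one_right h1]; exact B.inv_eq a.2
  have h4 := B.card_fixed_le hs hs1
  have hcard : Nat.card K * Nat.card R = 16 := by
    rw [card_map_of_injective A.subtype_injective, card_map_of_injective A.subtype_injective,
      ← index_ker, card_mul_index, B.card]
  have hR4 : Nat.card R ≤ 4 := le_trans (Nat.le_of_dvd Nat.card_pos (card_dvd_of_le hle)) h4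
  have hK4 : Nat.card K ≤ 4 := le_trans (Nat.le_of_dvd Nat.card_pos (card_dvd_of_le hK)) h4
  have hR : 4 ≤ Nat.card R := by nlinarith
  have hRe : R = B.fixed s := eq_of_le_of_card_ge hle (le_trans h4 hR)
  refine ⟨le_antisymm h4 (hR.trans (Nat.le_of_dvd Nat.card_pos (card_dvd_of_le hle))), ?_⟩
  intro c hc
  rw [← hRe] at hc
  obtain ⟨_, ⟨a, rfl⟩, rfl⟩ := hc
  exact ⟨a, a.2, rfl⟩

/-- A 2-element of the kernel lies in `A`. -/
theorem mem_A_of {n : G} (hn : n ∈ normalizer (A : Set G)) (h : B.f n = 1) {k : ℕ}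
    (hk : n ^ 2 ^ k = 1) : n ∈ A := by
  obtain ⟨a, ha, o, ho, rfl⟩ := B.ker_decomp hn h
  have hc : Commute a o := (B.core_comm ho ha).symm
  have h1 : (a * o) ^ 2 ^ (k + 1) = 1 := by rw [pow_succ, pow_mul, hk, one_pow]
  rw [hc.mul_pow, pow_succ', pow_mul, pow_two, B.sq ha, one_pow, one_mul] at h1
  rw [← pow_succ'] at h1
  rwa [eq_one_of_odd (orderOf_odd_of_mem (core_odd _) ho) h1, mul_one]

theorem invol_mem_A {x : G} (hn : x ∈ normalizer (A : Set G)) (h : B.f x = 1) (hx : x * x = 1) :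
    x ∈ A := B.mem_A_of hn h (k := 1) (by rw [pow_one, pow_two, hx])

theorem f_sq {x : G} (hn : x ∈ normalizer (A : Set G)) (hx : x * x = 1) : B.f x * B.f x = 1 := by
  rw [← B.f_mul hn hn, hx, B.f_one]

/-- Involutions inducing the same nontrivial permutation are conjugate by the kernel. -/
theorem conj_of_f_eq {x y : G} (hxn : x ∈ normalizer (A : Set G))
    (hyn : y ∈ normalizer (A : Set G)) (hx : x * x = 1) (hy : y * y = 1) (hf : B.f x = B.f y)
    (hf1 : B.f x ≠ 1) : ∃ n ∈ normalizer (A : Set G), B.f n = 1 ∧ n * x * n⁻¹ = y := by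
  have hk : B.f (y * x) = 1 := by rw [B.f_mul hyn hxn, ← hf, B.f_sq hxn hx]
  obtain ⟨a, ha, o, ho, hyx⟩ := B.ker_decomp (mul_mem hyn hxn) hk
  have hy' : y = o * (a * x) := by
    calc y = y * x * x := by rw [mul_assoc, hx, mul_one]
      _ = o * (a * x) := by rw [hyx, ← mul_assoc o, B.core_comm ho ha]
  have hxi : x⁻¹ = x := inv_eq_of_mul_eq_one_left hx
  have hax : (a * x) * (a * x) = a * B.act (B.f x) a := by
    rw [← B.act_eq hxn ha, hxi]; group
  have hA1 : (a * x) * (a * x) ∈ A := hax ▸ mul_mem ha (B.act_mem _ ha)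
  have hO1 : (a * x) * (a * x) ∈ core (normalizer (A : Set G)) := by
    have e : (a * x) * (a * x) = (a * x) * o⁻¹ * (a * x)⁻¹ * o⁻¹ := by
      have h2 : o * (a * x) * (o * (a * x)) = 1 := hy' ▸ hy
      calc (a * x) * (a * x)
          = (a * x) * o⁻¹ * (a * x)⁻¹ * o⁻¹ * (o * (a * x) * (o * (a * x))) := by group
        _ = _ := by rw [h2, mul_one]
    rw [e]
    exact mul_mem (core_conj (mul_mem (le_nz ha) hxn) (inv_mem ho)) (inv_mem ho)
  have hax1 : (a * x) * (a * x) = 1 := eq_one_of_odd (orderOf_odd_of_mem (core_odd _) hO1) (k := 1)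
    (by rw [pow_one, pow_two]; exact B.sq hA1)
  have hfix : a ∈ B.fixed (B.f x) := ⟨ha, by
    rw [hax] at hax1
    rw [eq_inv_of_mul_eq_one_right hax1, B.inv_eq ha]⟩
  obtain ⟨b, hb, hba⟩ := (B.fixed_invol (B.f_sq hxn hx) hf1).2 a hfix
  have hbx : b * x * b⁻¹ = a * x := by
    rw [← hba, ← B.act_eq hxn hb, B.inv_eq hb, hxi]
    calc b * x * b = b * (x * b * x) * x⁻¹ := by group
      _ = b * (x * b * x) * x := by rw [hxi]
  obtain ⟨r, hr, hre⟩ := exists_conj_of_inverted hax1 (orderOf_odd_of_mem (core_odd _) ho)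
    (hy' ▸ hy)
  have hro : r ∈ core (normalizer (A : Set G)) := zpowers_le.2 ho hr
  refine ⟨r * b, mul_mem (core_le _ hro) (le_nz hb), ?_, ?_⟩
  · rw [B.f_mul (core_le _ hro) (le_nz hb), B.f_core hro, B.f_A hb, one_mul]
  · rw [hy', ← hre, ← hbx]; group

/-- Involutions outside the kernel form one class of the normalizer. -/
theorem out_conj {x y : G} (hxn : x ∈ normalizer (A : Set G)) (hyn : y ∈ normalizer (A : Set G))
    (hx : x * x = 1) (hy : y * y = 1) (hfx : B.f x ≠ 1) (hfy : B.f y ≠ 1) :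
    ∃ n ∈ normalizer (A : Set G), n * x * n⁻¹ = y := by
  obtain ⟨s₀, hs₀⟩ := a5_conj_all
  obtain ⟨t₁, ht₁⟩ := hs₀ _ (B.f_sq hxn hx) hfx
  obtain ⟨t₂, ht₂⟩ := hs₀ _ (B.f_sq hyn hy) hfy
  set m := B.lift (t₂⁻¹ * t₁)
  have hm : m ∈ normalizer (A : Set G) := B.lift_mem _
  have hx' : m * x * m⁻¹ * (m * x * m⁻¹) = 1 := by rw [conj_mul, hx, mul_one, mul_inv_cancel]
  have hfm : B.f (m * x * m⁻¹) = B.f y := by
    rw [B.f_conj hm hxn, B.f_lift,
      show t₂⁻¹ * t₁ * B.f x * (t₂⁻¹ * t₁)⁻¹ = t₂⁻¹ * (t₁ * B.f x * t₁⁻¹) * t₂ by group, ht₁, ← ht₂]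
    group
  obtain ⟨n, hn, -, hne⟩ := B.conj_of_f_eq (mul_mem (mul_mem hm hxn) (inv_mem hm)) hyn hx' hy hfm
    (hfm ▸ hfy)
  exact ⟨n * m, mul_mem hn hm, by rw [← hne]; group⟩

theorem exists_conj_mem (P : Subgroup G) (hP : IsPGroup 2 P) :
    ∃ g : G, ∀ x ∈ P, g * x * g⁻¹ ∈ normalizer (A : Set G) := by
  haveI : Fact (Nat.Prime 2) := ⟨Nat.prime_two⟩
  obtain ⟨S, hS⟩ := B.sylow
  obtain ⟨Q, hQ⟩ := hP.exists_le_sylow
  obtain ⟨g, hg⟩ := MulAction.exists_smul_eq G Q S
  refine ⟨g, fun x hx => hS ?_⟩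
  rw [← hg, Sylow.coe_subgroup_smul]
  exact Subgroup.smul_mem_pointwise_smul _ (MulAut.conj g) _ (hQ hx)

theorem exists_conj_invol {x : G} (hx : x * x = 1) :
    ∃ g : G, g * x * g⁻¹ ∈ normalizer (A : Set G) := by
  obtain ⟨g, hg⟩ := B.exists_conj_mem (zpowers x) (by
    rintro ⟨y, hy⟩
    obtain ⟨k, rfl⟩ := mem_zpowers_iff.1 hy
    refine ⟨1, Subtype.ext ?_⟩
    show (x ^ k) ^ (2 ^ 1) = 1
    rw [pow_one, pow_two, ← (Commute.refl x).mul_zpow, hx, one_zpow])
  exact ⟨g, hg x (mem_zpowers x)⟩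

/-- Two classes do not suffice. -/
theorem cover (a b : G) (h : ∀ x : G, orderOf x = 2 → IsConj a x ∨ IsConj b x) : False := by
  classical
  have hsub : {c : ConjClasses G | ∃ x ∈ c.carrier, orderOf x = 2}
      ⊆ {ConjClasses.mk a, ConjClasses.mk b} := by
    rintro c ⟨x, hx, h2⟩
    rw [ConjClasses.mem_carrier_iff_mk_eq] at hx
    subst hx
    rcases h x h2 with h' | h'
    · exact Or.inl (ConjClasses.mk_eq_mk_iff_isConj.2 h'.symm)
    · exact Or.inr (ConjClasses.mk_eq_mk_iff_isConj.2 h'.symm)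
  have h1 := Set.ncard_le_ncard hsub (Set.toFinite _)
  have h2 := Set.ncard_insert_le (ConjClasses.mk a) ({ConjClasses.mk b} : Set (ConjClasses G))
  rw [Set.ncard_singleton] at h2
  have h3 : Nat.card {c : ConjClasses G // ∃ x ∈ c.carrier, orderOf x = 2}
      = {c : ConjClasses G | ∃ x ∈ c.carrier, orderOf x = 2}.ncard := Nat.card_coe_set_eq _
  rw [B.three] at h3
  omega

/-- If `A` has a single class, there are at most two classes of involutions. -/
theorem not_single {a₀ : G} (ha₀ : a₀ ∈ A)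
    (h : ∀ a ∈ A, a ≠ 1 → ∃ s : A5, B.act s a₀ = a) : False := by
  classical
  have key : ∀ x : G, orderOf x = 2 → IsConj a₀ x ∨
      ∃ y ∈ normalizer (A : Set G), y * y = 1 ∧ B.f y ≠ 1 ∧ IsConj y x := by
    intro x hx
    obtain ⟨g, hg⟩ := B.exists_conj_invol (Invol.inv_mul_self hx)
    set y := g * x * g⁻¹
    have hy : y * y = 1 := Invol.inv_mul_self ((Invol.orderOf_conj g x).trans hx)
    have hyx : IsConj y x := (Invol.isConj_conj g x).symm
    by_cases hf : B.f y = 1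
    · obtain ⟨s, hs⟩ := h y (B.invol_mem_A hg hf hy)
        (Invol.inv_ne_one ((Invol.orderOf_conj g x).trans hx))
      have hc : IsConj a₀ y := hs ▸ (Invol.isConj_conj (B.lift s) a₀ : IsConj a₀ (B.act s a₀))
      exact Or.inl (hc.trans hyx)
    · exact Or.inr ⟨y, hg, hy, hf, hyx⟩
  by_cases hv : ∃ v ∈ normalizer (A : Set G), v * v = 1 ∧ B.f v ≠ 1
  · obtain ⟨v, hvn, hv2, hvf⟩ := hv
    refine B.cover a₀ v fun x hx => ?_
    rcases key x hx with h' | ⟨y, hyn, hy2, hyf, hyx⟩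
    · exact Or.inl h'
    · obtain ⟨n, -, hn⟩ := B.out_conj hvn hyn hv2 hy2 hvf hyf
      exact Or.inr ((hn ▸ Invol.isConj_conj n v).trans hyx)
  · refine B.cover a₀ a₀ fun x hx => ?_
    rcases key x hx with h' | ⟨y, hyn, hy2, hyf, -⟩
    · exact Or.inl h'
    · exact absurd ⟨y, hyn, hy2, hyf⟩ hv

end Base

end Cfsg.Agent.EightType
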