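import Cfsg.Agent.EightType.Model

/-!
The five points: elements `z i` of `A` permuted as the points, so that `A` consists of the subsets
of five points modulo complement.
-/

set_option autoImplicit false
set_option linter.unusedSectionVars false
set_option linter.style.haveILetI false
set_option maxHeartbeats 1000000

namespace Cfsg.Agent.EightType

open Subgroup

universe u

variable {G : Type u} [Group G] [Finite G] {A : Subgroup G}

/-- A `Base` with a choice of the five elements. -/
structure Model (A : Subgroup G) extends Base A where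
  z : Fin 5 → G
  z_mem : ∀ i, z i ∈ A
  z_ne : ∀ i, z i ≠ 1
  z_inj : Function.Injective z
  z_act : ∀ (s : A5) (i : Fin 5), toBase.act s (z i) = z (s.1 i)

theorem Base.exists_model (B : Base A) : Nonempty (Model A) := by
  classical
  obtain ⟨a, ha2, ha1, ha0, b, hb2, hb1, hb0, hab, t, ht3, ht0, ht1, hdec⟩ := a5_stab_zero
  obtain ⟨hcomm, -, hfour⟩ := a5_four 0 a ha2 ha1 ha0 b hb2 hb1 hb0 hab
  choose g hg using a5_trans
  -- points fixed by `a` and `b` are fixed by all involutions fixing the point `0`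
  have hF0 : ∀ x, x ∈ B.fixed a → x ∈ B.fixed b → ∀ r : A5, r * r = 1 → r.1 0 = 0 →
      B.act r x = x := by
    intro x hxa hxb r hr hr0
    rcases hfour r hr hr0 with rfl | rfl | rfl | rfl
    · exact B.act_one hxa.1
    · exact hxa.2
    · exact hxb.2
    · rw [B.act_mul _ _ hxa.1, hxb.2, hxa.2]
  have hFj : ∀ x, x ∈ B.fixed a → x ∈ B.fixed b → ∀ (s r : A5), r * r = 1 →
      r.1 (s.1 0) = s.1 0 → B.act r (B.act s x) = B.act s x := by
    intro x hxa hxb s r hr hr0
    have h := hF0 x hxa hxb (s⁻¹ * r * s)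
      (by rw [show s⁻¹ * r * s * (s⁻¹ * r * s) = s⁻¹ * (r * r) * s by group, hr]; group)
      (by simp [Equiv.Perm.mul_apply, hr0])
    calc B.act r (B.act s x) = B.act (s * (s⁻¹ * r * s)) x := by
          rw [← B.act_mul _ _ hxa.1]; group
      _ = B.act s x := by rw [B.act_mul _ _ hxa.1, h]
  have hdisj : ∀ x, x ∈ A → ∀ i j : Fin 5, i ≠ j →
      (∀ r : A5, r * r = 1 → r.1 i = i → B.act r x = x) →
      (∀ r : A5, r * r = 1 → r.1 j = j → B.act r x = x) → x = 1 := by
    intro x hx i j hij hi hj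
    obtain ⟨p, hp2, -, hpi, q, hq2, -, hqj, hne, h5⟩ := a5_five_of_points i j hij
    refine B.fix5 h5 hne hx ?_
    rw [B.act_mul _ _ hx, hj q hq2 hqj, hi p hp2 hpi]
  by_cases hz : ∃ x, x ≠ 1 ∧ x ∈ B.fixed a ∧ x ∈ B.fixed b ∧ B.act t x = x
  · obtain ⟨x, hx1, hxa, hxb, hxt⟩ := hz
    have hxA : x ∈ A := hxa.1
    have hstab : ∀ s : A5, s.1 0 = 0 → B.act s x = x := by
      intro s hs
      obtain ⟨k, hk⟩ := hdec s hs
      have hpow : ∀ n : ℕ, B.act (t ^ n) x = x := fun n => by
        induction n with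
        | zero => rw [pow_zero]; exact B.act_one hxA
        | succ n ih => rw [pow_succ, B.act_mul _ _ hxA, hxt, ih]
      have e : B.act (s * t ^ (k : ℕ)) x = x := by
        rcases hk with e | e | e | e <;> rw [e]
        · exact B.act_one hxA
        · exact hxa.2
        · exact hxb.2
        · rw [B.act_mul _ _ hxA, hxb.2, hxa.2]
      rwa [B.act_mul _ _ hxA, hpow] at e
    have hact : ∀ (s : A5) (i : Fin 5), B.act s (B.act (g i) x) = B.act (g (s.1 i)) x := by
      intro s i
      have h := hstab ((g (s.1 i))⁻¹ * s * g i) (by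
        have e1 := hg i
        have e2 := hg (s.1 i)
        simp only [Subgroup.coe_mul, Subgroup.coe_inv, Equiv.Perm.mul_apply, e1]
        rw [Equiv.Perm.inv_eq_iff_eq, e2])
      calc B.act s (B.act (g i) x)
          = B.act (g (s.1 i) * ((g (s.1 i))⁻¹ * s * g i)) x := by
            rw [← B.act_mul _ _ hxA]; group
        _ = B.act (g (s.1 i)) x := by rw [B.act_mul _ _ hxA, h]
    refine ⟨Model.mk B (fun i => B.act (g i) x) (fun i => B.act_mem _ hxA)
      (fun i => B.act_ne_one _ hx1) ?_ hact⟩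
    intro i j hij
    by_contra hne
    refine B.act_ne_one (g i) hx1 (hdisj _ (B.act_mem _ hxA) i j hne (fun r hr hri => ?_)
      fun r hr hrj => ?_)
    · rw [hact, hri]
    · rw [show B.act (g i) x = B.act (g j) x from hij, hact, hrj]
  · exfalso
    push Not at hz
    obtain ⟨x₀, hx₀, hx₀1⟩ : ∃ y ∈ B.fixed a, y ≠ 1 := by
      by_contra hc
      push Not at hc
      have h4 := (B.fixed_invol ha2 ha1).1
      rw [(Subgroup.eq_bot_iff_forall _).2 hc, card_bot] at h4
      omega
    obtain ⟨x, hx1, hxa, hxb⟩ : ∃ x, x ≠ 1 ∧ x ∈ B.fixed a ∧ x ∈ B.fixed b := by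
      have hbx : B.act b x₀ ∈ B.fixed a := ⟨B.act_mem b hx₀.1, by
        rw [← B.act_mul _ _ hx₀.1, hcomm, B.act_mul _ _ hx₀.1, hx₀.2]⟩
      by_cases h0 : B.act b x₀ = x₀
      · exact ⟨x₀, hx₀1, hx₀, hx₀.1, h0⟩
      · refine ⟨x₀ * B.act b x₀, ?_, mul_mem hx₀ hbx, mul_mem hx₀.1 (B.act_mem b hx₀.1), ?_⟩
        · intro e
          exact h0 ((eq_inv_of_mul_eq_one_right e).trans (B.inv_eq hx₀.1))
        · rw [B.act_map_mul, ← B.act_mul _ _ hx₀.1, hb2, B.act_one hx₀.1,
            B.comm (B.act_mem b hx₀.1) hx₀.1]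
    have hxA : x ∈ A := hxa.1
    have hnot : ∀ d : ℕ, d % 3 ≠ 0 → B.act (t ^ d) x ≠ x := by
      intro d hd h
      have e : t ^ d = t ^ (d % 3) := by
        conv_lhs => rw [← Nat.div_add_mod d 3, pow_add, pow_mul, ht3, one_pow, one_mul]
      rw [e] at h
      rcases (show d % 3 = 1 ∨ d % 3 = 2 by omega) with h' | h' <;> rw [h'] at h
      · exact hz x hx1 hxa hxb (by simpa using h)
      · refine hz x hx1 hxa hxb ?_
        have h2 := congrArg (B.act (t ^ 2)) h
        rw [← B.act_mul _ _ hxA, ← pow_add, show 2 + 2 = 3 + 1 from rfl, pow_add, ht3, one_mul,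
          pow_one, h] at h2
        exact h2
    let F : Fin 5 × Fin 3 → {y : A // (y : G) ≠ 1} := fun p =>
      ⟨⟨B.act (g p.1 * t ^ (p.2 : ℕ)) x, B.act_mem _ hxA⟩, B.act_ne_one _ hx1⟩
    have hinj : Function.Injective F := by
      rintro ⟨i, k⟩ ⟨j, l⟩ h
      have h' : B.act (g i * t ^ (k : ℕ)) x = B.act (g j * t ^ (l : ℕ)) x :=
        congrArg (fun y : {y : A // (y : G) ≠ 1} => (y.1 : G)) h
      have hp : ∀ (i : Fin 5) (k : ℕ), (g i * t ^ k).1 0 = i := by
        intro i k
        have : (t ^ k).1 0 = 0 := by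
          induction k with
          | zero => rfl
          | succ k ih => simp [pow_succ, Equiv.Perm.mul_apply, ht0]; simpa using ih
        simp only [Subgroup.coe_mul, Equiv.Perm.mul_apply] at this ⊢
        rw [this, hg]
      have hij : i = j := by
        by_contra hne
        refine B.act_ne_one (g i * t ^ (k : ℕ)) hx1 (hdisj _ (B.act_mem _ hxA) i j hne
          (fun r hr hri => hFj x hxa hxb _ r hr (by rw [hp]; exact hri)) fun r hr hrj => ?_)
        rw [h']
        exact hFj x hxa hxb _ r hr (by rw [hp]; exact hrj)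
      subst hij
      refine Prod.ext rfl (Fin.ext ?_)
      by_contra hkl
      have h2 : B.act (t ^ (k : ℕ)) x = B.act (t ^ (l : ℕ)) x := by
        have := congrArg (B.act (g i)⁻¹) h'
        rwa [B.act_mul _ _ hxA, B.act_mul _ _ hxA, B.act_symm _ (B.act_mem _ hxA),
          B.act_symm _ (B.act_mem _ hxA)] at this
      have h3 := congrArg (B.act (t ^ (3 - (k : ℕ)))) h2
      rw [← B.act_mul _ _ hxA, ← B.act_mul _ _ hxA, ← pow_add, ← pow_add,
        Nat.sub_add_cancel k.2.le, ht3, B.act_one hxA] at h3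
      exact hnot _ (by have := k.2; have := l.2; simp only [] at hkl ⊢; omega) h3.symm
    have hcard : Nat.card (Fin 5 × Fin 3) = Nat.card {y : A // (y : G) ≠ 1} := by
      letI := Fintype.ofFinite A
      have h1 : Fintype.card {y : A // (y : G) = 1} = 1 :=
        Fintype.card_eq_one_iff.2 ⟨⟨1, rfl⟩, fun y => Subtype.ext (Subtype.ext y.2)⟩
      rw [Nat.card_eq_fintype_card, Nat.card_eq_fintype_card,
        Fintype.card_subtype_compl (fun y : A => (y : G) = 1), ← Nat.card_eq_fintype_card (α := A),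
        B.card, h1]
      rfl
    have hbij := (Nat.bijective_iff_injective_and_card F).2 ⟨hinj, hcard⟩
    refine B.not_single hxA fun y hy hy1 => ?_
    obtain ⟨⟨i, k⟩, hik⟩ := hbij.2 ⟨⟨y, hy⟩, hy1⟩
    exact ⟨g i * t ^ (k : ℕ), congrArg (fun y : {y : A // (y : G) ≠ 1} => (y.1 : G)) hik⟩

namespace Model

variable (M : Model A)
include M

open Classical in
/-- The product of the elements attached to a set of points. -/
noncomputable def ev (T : Finset (Fin 5)) : G :=
  letI : CommGroup A :=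
    { (inferInstance : Group A) with mul_comm := fun x y => Subtype.ext (M.comm x.2 y.2) }
  ((∏ i : Fin 5, if i ∈ T then (⟨M.z i, M.z_mem i⟩ : A) else 1 : A) : G)

theorem ev_mem (T : Finset (Fin 5)) : M.ev T ∈ A := SetLike.coe_mem _

theorem ev_empty : M.ev ∅ = 1 := by simp [ev]

theorem ev_mul (T T' : Finset (Fin 5)) : M.ev T * M.ev T' = M.ev (symmDiff T T') := by
  letI : CommGroup A :=
    { (inferInstance : Group A) with mul_comm := fun x y => Subtype.ext (M.comm x.2 y.2) }
  unfold ev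
  rw [← Subgroup.coe_mul, ← Finset.prod_mul_distrib]
  refine congrArg Subtype.val (Finset.prod_congr rfl fun i _ => ?_)
  have h2 : (⟨M.z i, M.z_mem i⟩ : A) * ⟨M.z i, M.z_mem i⟩ = 1 := Subtype.ext (M.sq (M.z_mem i))
  by_cases h : i ∈ T <;> by_cases h' : i ∈ T' <;> simp [Finset.mem_symmDiff, h, h', h2]

theorem ev_single (i : Fin 5) : M.ev {i} = M.z i := by
  simp [ev, Finset.prod_ite_eq']

theorem ev_pair {i j : Fin 5} (h : i ≠ j) : M.ev {i, j} = M.z i * M.z j := by
  rw [← M.ev_single i, ← M.ev_single j, M.ev_mul]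
  congr 1
  ext k
  simp only [Finset.mem_symmDiff, Finset.mem_insert, Finset.mem_singleton]
  constructor
  · rintro (rfl | rfl)
    exacts [Or.inl ⟨rfl, h⟩, Or.inr ⟨rfl, h.symm⟩]
  · rintro (⟨rfl, -⟩ | ⟨rfl, -⟩) <;> simp

theorem act_ev (s : A5) (T : Finset (Fin 5)) : M.act s (M.ev T) = M.ev (T.map s.1.toEmbedding) := by
  letI : CommGroup A :=
    { (inferInstance : Group A) with mul_comm := fun x y => Subtype.ext (M.comm x.2 y.2) }
  let f : A →* A := MonoidHom.mk' (fun x => ⟨M.act s x, M.act_mem s x.2⟩)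
    fun x y => Subtype.ext (M.act_map_mul s x y)
  unfold ev
  show ((f _ : A) : G) = _
  rw [map_prod]
  refine congrArg Subtype.val (Fintype.prod_equiv s.1 _ _ fun i => ?_)
  simp only [Finset.mem_map_equiv, Equiv.symm_apply_apply]
  by_cases h : i ∈ T
  · simp only [h, if_true]
    exact Subtype.ext (M.z_act s i)
  · simp only [h, if_false, map_one]

theorem ev_univ : M.ev Finset.univ = 1 := by
  obtain ⟨p, -, -, -, q, -, -, -, hne, h5⟩ := a5_five_of_points 0 1 (by decide)
  refine M.fix5 h5 hne (M.ev_mem _) ?_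
  rw [act_ev]
  simp

theorem ev_compl (T : Finset (Fin 5)) : M.ev Tᶜ = M.ev T := by
  have : Tᶜ = symmDiff T Finset.univ := (symmDiff_top T).symm
  rw [this, ← M.ev_mul, M.ev_univ, mul_one]

theorem ev_eq_one {T : Finset (Fin 5)} (h : M.ev T = 1) : T = ∅ ∨ T = Finset.univ := by
  rcases finset5_cases T with hT | hT | ⟨i, hT⟩ | ⟨i, j, hij, hT⟩
  · exact Or.inl hT
  · exact Or.inr hT
  · exfalso
    apply M.z_ne i
    rcases hT with hT | hT
    · rwa [hT, M.ev_single] at h
    · rwa [← M.ev_compl, hT, M.ev_single] at h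
  · exfalso
    have h' : M.z i * M.z j = 1 := by
      rcases hT with hT | hT
      · rwa [hT, M.ev_pair hij] at h
      · rwa [← M.ev_compl, hT, M.ev_pair hij] at h
    exact hij (M.z_inj ((eq_inv_of_mul_eq_one_left h').trans (M.inv_eq (M.z_mem j))))

theorem ev_eq {T T' : Finset (Fin 5)} (h : M.ev T = M.ev T') : T' = T ∨ T' = Tᶜ := by
  have h1 : M.ev (symmDiff T T') = 1 := by rw [← M.ev_mul, h, M.sq (M.ev_mem _)]
  rcases M.ev_eq_one h1 with e | e
  · left
    rw [← symmDiff_symmDiff_cancel_left T T', e]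
    exact symmDiff_bot T
  · right
    rw [← symmDiff_symmDiff_cancel_left T T', e]
    exact symmDiff_top T

theorem ev_surj {a : G} (ha : a ∈ A) : ∃ T, M.ev T = a := by
  classical
  let F : {T : Finset (Fin 5) // (4 : Fin 5) ∉ T} → A := fun T => ⟨M.ev T.1, M.ev_mem _⟩
  have hinj : Function.Injective F := by
    intro T T' h
    rcases M.ev_eq (congrArg Subtype.val h) with e | e
    · exact Subtype.ext e.symm
    · exact absurd (by rw [e]; exact Finset.mem_compl.2 T.2) T'.2
  have hbij := (Nat.bijective_iff_injective_and_card F).2 ⟨hinj, by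
    rw [M.card, Nat.card_eq_fintype_card, Fintype.card_subtype]
    exact finset5_card⟩
  obtain ⟨T, hT⟩ := hbij.2 ⟨a, ha⟩
  exact ⟨T.1, congrArg Subtype.val hT⟩

/-- The two kinds of nonidentity elements. -/
def ZT (a : G) : Prop := ∃ i, a = M.z i

/-- The elements attached to pairs of points. -/
def BT (a : G) : Prop := ∃ i j, i ≠ j ∧ a = M.z i * M.z j

theorem types {a : G} (ha : a ∈ A) (ha1 : a ≠ 1) : M.ZT a ∨ M.BT a := by
  obtain ⟨T, rfl⟩ := M.ev_surj ha
  rcases finset5_cases T with hT | hT | ⟨i, hT⟩ | ⟨i, j, hij, hT⟩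
  · exact absurd (hT ▸ M.ev_empty) ha1
  · exact absurd (hT ▸ M.ev_univ) ha1
  · left
    refine ⟨i, ?_⟩
    rcases hT with hT | hT
    · rw [hT, M.ev_single]
    · rw [← M.ev_compl, hT, M.ev_single]
  · right
    refine ⟨i, j, hij, ?_⟩
    rcases hT with hT | hT
    · rw [hT, M.ev_pair hij]
    · rw [← M.ev_compl, hT, M.ev_pair hij]

end Model

end Cfsg.Agent.EightType
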